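import Cfsg.Agent.Lib.GW.ProdA

/-!
# Reduction of the product theorem to simple groups
-/

set_option autoImplicit false
set_option linter.unusedSectionVars false

namespace GW

open Cfsg GT FT GAG Subgroup
open scoped Pointwise commutatorElement

universe u

variable {G : Type*} [Group G]

/-- The Sylow subgroup `S` is the direct product of the strongly closed subgroups `D` and `R`. -/
structure Sym (S D R : Subgroup G) : Prop where
  syl : IsSylowIn 2 S ⊤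
  sup : D ⊔ R = S
  inf : D ⊓ R = ⊥
  comm : D ≤ 𝐂(R)
  cD : SCl D S
  cR : SCl R S

namespace Sym

variable {S D R : Subgroup G} (h : Sym S D R)
include h

theorem symm : Sym S R D :=
  ⟨h.syl, sup_comm D R ▸ h.sup, inf_comm D R ▸ h.inf, le_cent_comm.1 h.comm, h.cR, h.cD⟩

theorem D_le : D ≤ S := h.sup ▸ le_sup_left

theorem R_le : R ≤ S := h.sup ▸ le_sup_right

theorem two_D : IsPGroup 2 D := h.syl.isPGroup.to_le h.D_le

theorem two_R : IsPGroup 2 R := h.syl.isPGroup.to_le h.R_le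

theorem mul_comm {d r : G} (hd : d ∈ D) (hr : r ∈ R) : d * r = r * d := (h.comm hd r hr).symm

theorem decomp {x : G} (hx : x ∈ S) : ∃ d ∈ D, ∃ r ∈ R, d * r = x :=
  (mem_sup_of_le_normalizer_right (h.comm.trans (cent_le_norm R))).1 (h.sup ▸ hx)

theorem eq_one {x : G} (h1 : x ∈ D) (h2 : x ∈ R) : x = 1 := mem_bot.1 (h.inf ▸ (⟨h1, h2⟩ : x ∈ D ⊓ R))

theorem uniq {d d' r r' : G} (hd : d ∈ D) (hd' : d' ∈ D) (hr : r ∈ R) (hr' : r' ∈ R)
    (e : d * r = d' * r') : d = d' ∧ r = r' := by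
  have h1 : d'⁻¹ * d = r' * r⁻¹ := by
    calc d'⁻¹ * d = d'⁻¹ * (d * r) * r⁻¹ := by group
      _ = _ := by rw [e]; group
  have h2 := h.eq_one (D.mul_mem (D.inv_mem hd') hd) (h1 ▸ R.mul_mem hr' (R.inv_mem hr))
  exact ⟨(inv_mul_eq_one.1 h2).symm, (mul_inv_eq_one.1 (h1 ▸ h2)).symm⟩

theorem mem_of_mul {N : Subgroup G} (hN : D ≤ N) {x : G} (hx : x ∈ S ⊓ N) : x ∈ D ⊓ N ⊔ R ⊓ N := by
  obtain ⟨d, hd, r, hr, rfl⟩ := h.decomp hx.1
  exact mul_mem (mem_sup_left ⟨hd, hN hd⟩)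
    (mem_sup_right ⟨hr, (Subgroup.mul_mem_cancel_left _ (hN hd)).1 hx.2⟩)

variable [Finite G]

theorem norm_le : 𝐍(S) ≤ 𝐍(D) := h.cD.norm_le h.D_le le_rfl

theorem S_le_norm : S ≤ 𝐍(D) := le_normalizer.trans h.norm_le

theorem syl_of_le {H : Subgroup G} (hH : S ≤ H) : IsSylowIn 2 S H := h.syl.of_le hH le_top

theorem inf_sup_eq {H : Subgroup G} (hH : S ≤ H) : D ⊓ H ⊔ R ⊓ H = S := by
  rw [inf_eq_left.2 (h.D_le.trans hH), inf_eq_left.2 (h.R_le.trans hH), h.sup]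

theorem Gen_le {H K : Subgroup G} (hH : S ≤ H) (hn : H ≤ 𝐍(K)) (hK : D ≤ K) : Gen D H ≤ K :=
  h.cD.Gen_le h.two_D (h.syl_of_le hH) le_rfl hn (inf_le_left.trans hK)

/-- `r` is isolated in the centralizer of `d r` -/
theorem eq_of_commute {d r g : G} (hd : d ∈ D) (hr : r ∈ R) (hg : g ∈ 𝐂[d * r])
    (hc : Commute r (g * r * g⁻¹)) : g * r * g⁻¹ = r := by
  have hb : g * (d * r) * g⁻¹ = d * r := by rw [mem_cent1.1 hg]; group
  have c1 : Commute r (d * r) := (show Commute r d from (h.mul_comm hd hr).symm).mul_right (Commute.refl r)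
  have c2 : Commute (g * r * g⁻¹) (d * r) := by
    rw [← hb]
    exact c1.conj g
  have p1 := isPElt_of_mem h.two_R hr
  have h1 : IsPGroup 2 (zpowers r ⊔ zpowers (g * r * g⁻¹) : Subgroup G) :=
    p1.isPGroup_zpowers.to_sup_of_normal_right' (p1.conj g).isPGroup_zpowers
      (le_normalizer_of_le_centralizer (by rw [centralizer_zpowers]; exact zpowers_le.2 (mem_cent1.2 hc)))
  have h2 : IsPGroup 2 (zpowers r ⊔ zpowers (g * r * g⁻¹) ⊔ zpowers (d * r) : Subgroup G) :=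
    h1.to_sup_of_normal_right' (isPElt_of_mem h.syl.isPGroup
      (S.mul_mem (h.D_le hd) (h.R_le hr))).isPGroup_zpowers (le_normalizer_of_le_centralizer (by
        rw [centralizer_zpowers]
        exact sup_le (zpowers_le.2 (mem_cent1.2 c1)) (zpowers_le.2 (mem_cent1.2 c2))))
  obtain ⟨k, -, hk⟩ := h.syl.exists_conj_le h2 le_top
  have a1 := conj_smul_le_iff.1 hk _ (mem_sup_left (mem_sup_left (mem_zpowers _)))
  have a2 := conj_smul_le_iff.1 hk _ (mem_sup_left (mem_sup_right (mem_zpowers _)))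
  have a3 := conj_smul_le_iff.1 hk _ (mem_sup_right (mem_zpowers _))
  have e1 : k * (g * r * g⁻¹) * k⁻¹ = k * g * r * (k * g)⁻¹ := by group
  have b1 := h.cR r hr k a1
  have b2 := h.cR r hr (k * g) (e1 ▸ a2)
  have e2 : k * (d * r) * k⁻¹ = k * d * k⁻¹ * (k * r * k⁻¹) := by group
  have e3 : k * (d * r) * k⁻¹ = k * g * d * (k * g)⁻¹ * (k * g * r * (k * g)⁻¹) := by
    rw [← hb]; nth_rewrite 1 [← hb]; rw [hb]; group
  have b3 := h.cD d hd k ((Subgroup.mul_mem_cancel_right _ a1).1 (e2 ▸ a3))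
  have b4 := h.cD d hd (k * g) ((Subgroup.mul_mem_cancel_right _ (e1 ▸ a2)).1 (e3 ▸ a3))
  have := (h.uniq b3 b4 b1 b2 (e2.symm.trans e3)).2
  rw [← e1] at this
  simpa using this.symm

/-- the normalizer of the central factor controls fusion -/
theorem exists_norm_conj (hc : S ≤ 𝐂(R)) {H : Subgroup G} (hH : S ≤ H) {x g : G} (hx : x ∈ S) (hg : g ∈ H)
    (h1 : g * x * g⁻¹ ∈ S) : ∃ n ∈ H ⊓ 𝐍(R), n * x * n⁻¹ = g * x * g⁻¹ := by
  have hRH := h.R_le.trans hH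
  obtain ⟨T, hT, hRT⟩ := exists_isSylowIn_ge h.two_R
    (le_inf hRH (le_cent1_iff.2 (hc h1)) : R ≤ H ⊓ 𝐂[g * x * g⁻¹])
  obtain ⟨c, hc1, hc2⟩ := hT.exists_conj_le (Q := MulAut.conj g • R) (h.two_R.of_equiv (conjEquiv g R)) (le_inf
    ((conj_smul_mono g hRH).trans (conj_smul_eq_of_mem hg).le)
    ((conj_smul_mono g (le_cent1_iff.2 (hc hx))).trans (conj_smul_centralizer_singleton g x).le))
  obtain ⟨k, -, hk⟩ := h.syl.exists_conj_le hT.isPGroup le_top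
  have k1 : k ∈ 𝐍(R) := mem_normalizer_of_conj_mem fun r hr =>
    h.cR r hr k (conj_smul_le_iff.1 hk r (hRT hr))
  have k2 : k * (c * g) ∈ 𝐍(R) := mem_normalizer_of_conj_mem fun r hr => h.cR r hr _ (by
    have := conj_smul_le_iff.1 hk _ (conj_smul_le_iff.1 hc2 _ (conj_mem_conj_smul.2 hr))
    convert this using 1; group)
  refine ⟨c * g, ⟨H.mul_mem hc1.1 hg, (Subgroup.mul_mem_cancel_left _ k1).1 k2⟩, ?_⟩
  calc c * g * x * (c * g)⁻¹ = c * (g * x * g⁻¹) * c⁻¹ := by group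
    _ = _ := by rw [mem_cent1.1 hc1.2]; group

section Sec

variable {M N : Subgroup G} [(N.subgroupOf M).Normal] (hN : N ≤ M)
  (hS : IsSylowIn 2 (D ⊓ M ⊔ R ⊓ M) M)
include hN hS

omit hN hS in
theorem sec_le : D ⊓ M ⊔ R ⊓ M ≤ S := h.sup ▸ sup_le_sup inf_le_left inf_le_left

theorem scl_sec : SCl (qim M N D) (qim M N (D ⊓ M ⊔ R ⊓ M)) := by
  rw [← qim_inf_M D]
  exact SCl.qim (h.two_D.to_le inf_le_right) hN hS fun x hx g hg h1 =>
    ⟨hS.le h1, h.cD x hx.2 g (h.sec_le h1)⟩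

theorem sec (hp : ∀ d ∈ D, ∀ r ∈ R, d * r ∈ N → d ∈ N) :
    Sym (qim M N (D ⊓ M ⊔ R ⊓ M)) (qim M N D) (qim M N R) where
  syl := sylow_qim_top hS
  sup := by rw [qim_sup inf_le_right inf_le_right, inf_comm D, inf_comm R, qim_inf_M, qim_inf_M]
  inf := eq_bot_iff.2 fun y hy => by
    obtain ⟨d, hd, rfl⟩ := mem_qim.1 hy.1
    obtain ⟨r, hr, e⟩ := mem_qim.1 hy.2
    exact mem_bot.2 (qmk_eq_one_iff.2 (inv_mem_iff.1 (hp _ (D.inv_mem hd) _ hr (qmk_eq_iff.1 e.symm))))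
  comm := qim_le_cent h.comm
  cD := h.scl_sec hN hS
  cR := by
    have := h.symm.scl_sec hN (sup_comm (D ⊓ M) (R ⊓ M) ▸ hS)
    rwa [sup_comm] at this

omit hN in
theorem qim_Gen_le : qim M N (Gen D M) ≤ Gen (qim M N D) ⊤ :=
  (qim_le_iff (GW.Gen_le D M)).2 (Gen_le_iff.2 fun x hx g h1 => by
    obtain ⟨k, hk, h2⟩ := h.cD.exists_conj h.two_D hS h.sec_le hx h1
    refine mem_qpre.2 ⟨hx, mem_Gen (g := qmk M N ⟨k, hk⟩) (mem_top _) ?_⟩
    rw [← map_inv, ← map_mul, ← map_mul]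
    exact qmk_mem_qim h2.1)

end Sec

theorem prod_of_odd {N : Subgroup G} (hN : ¬ 2 ∣ Nat.card N) {d : G} (hd : d ∈ D) {r : G} (hr : r ∈ R)
    (h1 : d * r ∈ N) : d ∈ N := by
  have h2 := (isPElt_of_mem h.syl.isPGroup (S.mul_mem (h.D_le hd) (h.R_le hr))).eq_one_of_isPRegular
    (isPRegular_of_mem hN h1)
  rw [(h.uniq hd D.one_mem hr R.one_mem (by rw [h2, one_mul])).1]
  exact N.one_mem

end Sym

/-- `Sym` together with the induction hypothesis -/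
structure Red (S D R : Subgroup G) : Prop extends Sym S D R where
  ih : ∀ (M N : Subgroup G) [(N.subgroupOf M).Normal], N ≤ M → (M ≠ ⊤ ∨ N ≠ ⊥) →
    IsSylowIn 2 (D ⊓ M ⊔ R ⊓ M) M → (∀ d ∈ D, ∀ r ∈ R, d * r ∈ N → d ∈ N) →
      ⁅Gen D M, Gen R M⁆ ≤ qpre M N (Op' 2 ⊤)

namespace Red

variable [Finite G] {S D R : Subgroup G} (h : Red S D R)
include h

theorem symm : Red S R D := ⟨h.toSym.symm, fun M N _ h1 h2 h3 h4 => by
  rw [commutator_comm]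
  refine h.ih M N h1 h2 (sup_comm (D ⊓ M) (R ⊓ M) ▸ h3) fun d hd r hr h5 => ?_
  rw [h.mul_comm hd hr] at h5
  exact (Subgroup.mul_mem_cancel_left _ (h4 r hr d hd h5)).1 h5⟩

theorem sub {M : Subgroup G} (h1 : M ≠ ⊤ ∨ Op' 2 M ≠ ⊥) (h2 : IsSylowIn 2 (D ⊓ M ⊔ R ⊓ M) M) :
    ⁅Gen D M, Gen R M⁆ ≤ Op' 2 M := by
  have := h.ih M (Op' 2 M) (piCoreOf_le _ _) h1 h2 fun d hd r hr =>
    h.prod_of_odd (not_dvd_card_Op' 2 M) hd hr
  rwa [show Op' 2 (⊤ : Subgroup (Quo M (Op' 2 M))) = ⊥ from piCoreOf_quo_piCoreOf _ _,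
    qpre_bot (piCoreOf_le _ _)] at this

theorem sub' {M : Subgroup G} (h1 : M ≠ ⊤) (h2 : S ≤ M) : ⁅Gen D M, Gen R M⁆ ≤ Op' 2 M :=
  h.sub (Or.inl h1) (h.inf_sup_eq h2 ▸ h.syl_of_le h2)

omit h in
theorem norm_Gen_top (P : Subgroup G) : ⊤ ≤ 𝐍(Gen P ⊤) := le_norm_Gen P ⊤

theorem eq_bot_of_le (h1 : D ≤ 𝐂(Gen R ⊤)) : ⁅Gen D ⊤, Gen R ⊤⁆ = ⊥ :=
  commutator_eq_bot_iff_le_centralizer.2
    (h.Gen_le le_top (le_normalizer_centralizer (norm_Gen_top R)) h1)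

variable (hO : Op' 2 (⊤ : Subgroup G) = ⊥) (hne : ⁅Gen D ⊤, Gen R ⊤⁆ ≠ ⊥)
include hO hne

omit hO in
theorem ne_symm : ⁅Gen R ⊤, Gen D ⊤⁆ ≠ ⊥ := by rwa [commutator_comm]

omit hO in
theorem D_ne_bot : D ≠ ⊥ := fun e => hne (h.eq_bot_of_le (e ▸ bot_le))

theorem eq_bot_of_central {N : Subgroup G} (h1 : N ≤ D) (h2 : ⊤ ≤ 𝐂(N)) : N = ⊥ := by
  by_contra h3
  have := subgroupOf_normal (h2.trans (cent_le_norm N))
  have h4 := h.ih ⊤ N le_top (Or.inr h3) (h.inf_sup_eq le_top ▸ h.syl) fun d hd r hr h5 => by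
    rwa [h.eq_one ((Subgroup.mul_mem_cancel_left _ hd).1 (h1 h5)) hr, mul_one] at h5
  rw [core_quo_central (h.two_D.to_le h1) h2 le_top (by rw [hO, sup_bot_eq]), qpre_bot le_top] at h4
  refine hne (h.eq_bot_of_le fun d hd => le_cent1_iff.1 ?_)
  have hP := norm_Gen_top R
  refine (Gen_le_Gen le_rfl).trans ((h.cR.Gen_le h.two_R (h.syl.inf_of_le_normalizer le_top hP) inf_le_left
    (K := Gen R ⊤ ⊓ 𝐂[d]) (fun x hx => mem_normalizer_of_conj_mem fun y hy => ⟨(Gen R ⊤).mul_mem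
      ((Gen R ⊤).mul_mem hx hy.1) ((Gen R ⊤).inv_mem hx), mem_cent1.2 ?_⟩) fun r hr => ⟨hr.2.2, mem_cent1.2 (h.mul_comm hd hr.1).symm⟩).trans
      inf_le_right)
  have h5 := h4 (commutator_mem_commutator (le_Gen le_top hd) hx)
  have h6 : ∀ g, ⁅d, x⁆ * g = g * ⁅d, x⁆ := fun g => h2 (mem_top g) _ h5
  have h7 : d * x = ⁅d, x⁆ * x * d := by rw [commutatorElement_def]; group
  have h8 := mem_cent1.1 hy.2
  calc x * y * x⁻¹ * d = x * y * (x⁻¹ * d * x) * x⁻¹ := by group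
    _ = x * y * (⁅d, x⁆ * d) * x⁻¹ := by rw [mul_assoc x⁻¹, h7, h6 x]; group
    _ = ⁅d, x⁆ * x * (y * d) * x⁻¹ := by rw [← mul_assoc (x * y), ← h6]; group
    _ = _ := by rw [h8, ← mul_assoc, ← h7]; group

theorem not_isol {t : G} (ht : t ∈ D) (h2 : t * t = 1) (h1 : t ≠ 1) :
    ¬ ∀ g : G, Commute t (g * t * g⁻¹) → g * t * g⁻¹ = t := fun h3 => by
  have h4 := zstar_in (mem_top t) h2 fun g _ => h3 g
  rw [hO, le_bot_iff, commutator_eq_bot_iff_le_centralizer] at h4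
  exact h1 (zpowers_eq_bot.1 (h.eq_bot_of_central hO hne (zpowers_le.2 ht) h4))

omit h hne in
theorem core_eq_bot {H N : Subgroup G} (hN : ⊤ ≤ 𝐍(N)) {P : Subgroup G} (hP : IsPGroup 2 P)
    (hH : H = P ⊔ N) : Op' 2 H = ⊥ := by
  have h1 : Op' 2 H ≤ N := le_of_odd_of_le_sup hP (le_top.trans hN) (not_dvd_card_Op' 2 H)
    (hH ▸ piCoreOf_le _ _)
  exact le_bot_iff.1 (hO ▸ (le_Op' h1 ((hH ▸ le_sup_right : N ≤ H).trans (le_norm_piCoreOf _ _))
    (not_dvd_card_Op' 2 H)).trans (piCoreOf_le_of_normal _ le_top hN))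

theorem Gen_eq_top : Gen R ⊤ = ⊤ := by
  by_contra hP
  have hn := norm_Gen_top R
  have hR : R ≤ Gen R ⊤ := le_Gen le_top
  by_cases h1 : D ⊔ Gen R ⊤ = ⊤
  swap
  · have h2 := h.sub' h1 (h.sup ▸ sup_le_sup_left hR D)
    rw [core_eq_bot hO hn h.two_D rfl, le_bot_iff, commutator_eq_bot_iff_le_centralizer] at h2
    exact hne (h.eq_bot_of_le ((le_Gen le_sup_left).trans (h2.trans
      (centralizer_anti (Gen_le_Gen le_sup_right)))))
  have h2 := h.sub (M := Gen R ⊤) (Or.inl hP) (by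
    have := h.syl.inf_of_le_normalizer le_top hn
    refine (le_antisymm (le_inf h.sec_le (sup_le inf_le_right inf_le_right)) fun x hx => ?_) ▸ this
    rw [sup_comm]
    exact h.toSym.symm.mem_of_mul hR hx)
  rw [core_eq_bot hO hn (P := ⊥) IsPGroup.of_bot (bot_sup_eq _).symm, le_bot_iff,
    commutator_eq_bot_iff_le_centralizer] at h2
  have h3 : D ⊓ Gen R ⊤ ≤ 𝐂(Gen R ⊤) := inf_le_Gen.trans (h2.trans (centralizer_anti (Gen_le_Gen le_rfl)))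
  have h4 : D ⊓ Gen R ⊤ = ⊥ := by
    by_contra h4
    refine inf_centralizer_ne_bot_of_isPGroup h.two_D (h.two_D.to_le inf_le_left) h4
      (le_normalizer_inf le_normalizer (le_top.trans hn)) (h.eq_bot_of_central hO hne
        (inf_le_left.trans inf_le_left) ?_)
    exact h1.ge.trans (sup_le (le_cent_comm.1 inf_le_right) (le_cent_comm.1 (inf_le_left.trans h3)))
  obtain ⟨z, hz, hz2, hz1⟩ := exists_invol (h.two_D.to_le inf_le_left)
    (inf_centralizer_ne_bot_of_isPGroup h.two_D h.two_D (h.D_ne_bot hne) le_normalizer)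
  refine h.not_isol hO hne hz.1 hz2 hz1 fun g hg => ?_
  obtain ⟨k, a1, a2⟩ := exists_conj_pair h.syl (isPElt_of_sq hz2) ((isPElt_of_sq hz2).conj g) hg
  have e1 : k * (g * z * g⁻¹) * k⁻¹ = k * g * z * (k * g)⁻¹ := by group
  have b1 := h.cD z hz.1 k a1
  have b2 := h.cD z hz.1 (k * g) (e1 ▸ a2)
  obtain ⟨y, hy, d, hd, rfl⟩ := (mem_sup_of_le_normalizer_left (le_top.trans hn)).1
    ((sup_comm D _ ▸ h1).ge (mem_top g))
  have e2 : y * d * z * (y * d)⁻¹ = y * z * y⁻¹ := by rw [mul_assoc y, hz.2 d hd]; group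
  have b3 : y * d * z * (y * d)⁻¹ * z⁻¹ ∈ Gen R ⊤ := by
    have := mul_mem hy (conj_mem_of_mem_normalizer (hn (mem_top z)) (inv_mem hy))
    rw [e2]; convert this using 1; group
  have b4 := conj_mem_of_mem_normalizer (hn (mem_top k)) b3
  have b5 : k * (y * d * z * (y * d)⁻¹ * z⁻¹) * k⁻¹ ∈ D := by
    have := D.mul_mem b2 (D.inv_mem b1)
    convert this using 1; group
  have b6 := mem_bot.1 (h4.le ⟨b5, b4⟩)
  exact mul_inv_eq_one.1 (conj_eq_one_iff.1 b6)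

theorem not_prod {N : Subgroup G} (hN : ⊤ ≤ 𝐍(N)) (h1 : N ≠ ⊥) (h2 : N ≠ ⊤) :
    ¬ ∀ d ∈ D, ∀ r ∈ R, d * r ∈ N → d ∈ N := fun hp => by
  have := subgroupOf_normal hN
  have h3 := h.ih ⊤ N le_top (Or.inr h1) (h.inf_sup_eq le_top ▸ h.syl) hp
  have e1 := h.Gen_eq_top hO hne
  have e2 := h.symm.Gen_eq_top hO (h.ne_symm hne)
  rw [e1, e2] at h3
  set K := qpre ⊤ N (Op' 2 ⊤) with hK
  have h4 : ⊤ ≤ 𝐍(K) := le_norm_qpre le_rfl (le_top.trans (le_norm_piCoreOf _ _))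
  have h5 : ⊤ ≤ D ⊔ K := e2 ▸ h.Gen_le le_top (le_normalizer_iff_commutator_le_left.2
    ((commutator_mono le_top le_rfl).trans (h3.trans le_sup_right))) le_sup_left
  refine h2 (top_le_iff.1 (e1 ▸ h.toSym.symm.Gen_le le_top hN fun r hr => ?_))
  obtain ⟨d, hd, k, hk, e⟩ := (mem_sup_of_le_normalizer_right (le_top.trans h4)).1 (h5 (mem_top r))
  have h6 : k = d⁻¹ * r := by rw [← e]; group
  obtain ⟨h7, h8⟩ := mem_qpre.1 hk
  have h9 : k ∈ N := (qmk_eq_one_iff (x := ⟨k, h7⟩)).1 ((((isPElt_mk h7).2 (isPElt_of_mem h.syl.isPGroup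
    (h6 ▸ S.mul_mem (S.inv_mem (h.D_le hd)) (h.R_le hr)))).map _).eq_one_of_isPRegular
      (isPRegular_of_mem (not_dvd_card_Op' 2 _) h8))
  rw [h6] at h9
  exact (Subgroup.mul_mem_cancel_left _ (hp _ (D.inv_mem hd) _ hr h9)).1 h9

theorem simple (hc : S ≤ 𝐂(R)) : IsSimpleGroup G := by
  have : Nontrivial G := by
    by_contra h1
    rw [not_nontrivial_iff_subsingleton] at h1
    exact hne (Subsingleton.elim _ _)
  refine ⟨fun M hM => ?_⟩
  by_contra hM'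
  push Not at hM'
  obtain ⟨N, hNM, hN⟩ := (Set.toFinite {K : Subgroup G | K ≠ ⊥ ∧ ⊤ ≤ 𝐍(K)}).exists_le_minimal
    (a := M) ⟨hM'.1, le_normalizer_of_normal⟩
  obtain ⟨hN1, hN2⟩ := hN.prop
  refine h.not_prod hO hne hN2 hN1 (fun e => hM'.2 (top_le_iff.1 (e ▸ hNM))) fun d hd r hr hdr => ?_
  have hS := h.syl.inf_of_le_normalizer le_top hN2
  by_cases hab : ⁅N, N⁆ = ⊥
  · rw [commutator_eq_bot_iff_le_centralizer] at hab
    have h1 : N ≤ S := (hN.le_of_le (y := S ⊓ N) ⟨fun e => hN1 (le_bot_iff.1 (hO ▸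
      le_Op' le_top hN2 (hS.eq_bot_iff.1 e))), hN2.trans (hS.normalizer_le_normalizer
        (le_normalizer_of_le_centralizer (hab.trans (centralizer_anti inf_le_right))))⟩ inf_le_right).trans
      inf_le_left
    have h2 : ⊤ ≤ 𝐂(N) := h.Gen_eq_top hO hne ▸ h.toSym.symm.Gen_le le_top (le_normalizer_centralizer hN2)
      (le_cent_comm.1 (h1.trans hc))
    by_cases hr1 : r = 1
    · rwa [hr1, mul_one] at hdr
    obtain ⟨_, ⟨k, rfl⟩, t2, t1⟩ := exists_invol (isPElt_of_mem h.two_R hr).isPGroup_zpowers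
      (zpowers_ne_bot.2 hr1)
    refine (h.symm.not_isol hO (h.ne_symm hne) (R.zpow_mem hr k) t2 t1 fun g =>
      h.eq_of_commute (D.zpow_mem hd k) (R.zpow_mem hr k) (cent_le_cent1 ?_ (h2 (mem_top g)))).elim
    rw [← Commute.mul_zpow (h.mul_comm hd hr)]
    exact N.zpow_mem hdr k
  have h1 : N ≤ ⁅N, N⁆ := hN.le_of_le (y := ⁅N, N⁆) ⟨hab, hN2.trans (norm_le_norm_der N)⟩ (der_le N)
  have h2 : ⁅N, N⁆ ⊓ (S ⊓ N) ≤ D ⊓ N ⊔ R ⊓ N := hS.commutator_inf_le fun x hx u hu hxu => by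
    obtain ⟨n, hn, e⟩ := h.exists_norm_conj hc (le_sup_right (a := N)) hx.1 (mem_sup_left hu) hxu.1
    obtain ⟨d, hd, r, hr, rfl⟩ := h.decomp hx.1
    have a1 := conj_mem_of_mem_normalizer hn.2 hr
    have e1 : n * (d * r) * n⁻¹ = n * d * n⁻¹ * (n * r * n⁻¹) := by group
    have a2 := h.cD d hd n ((Subgroup.mul_mem_cancel_right _ (h.R_le a1)).1 (e1 ▸ e ▸ hxu.1))
    have a3 : r * (n * r * n⁻¹)⁻¹ ∈ N := by
      obtain ⟨m, hm, s, hs, rfl⟩ := (mem_sup_of_le_normalizer_left (le_top.trans hN2)).1 hn.1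
      have := mul_mem (conj_mem_of_mem_normalizer (hN2 (mem_top r)) hm) (inv_mem hm)
      have e2 : m * s * r * (m * s)⁻¹ = m * r * m⁻¹ := by rw [mul_assoc m, ← hc hs r hr]; group
      have e3 : r * (m * r * m⁻¹)⁻¹ = (r * m * r⁻¹ * m⁻¹) := by group
      rwa [e2, e3]
    have e4 : d * r * (u * (d * r) * u⁻¹)⁻¹ = d * (n * d * n⁻¹)⁻¹ * (r * (n * r * n⁻¹)⁻¹) := by
      rw [← e, e1, mul_inv_rev, mul_assoc d (n * d * n⁻¹)⁻¹,
        h.mul_comm (D.inv_mem a2) (R.mul_mem hr (R.inv_mem a1))]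
      group
    have a4 := N.mul_mem hx.2 (N.inv_mem hxu.2)
    rw [e4] at a4 ⊢
    exact mul_mem (mem_sup_left ⟨D.mul_mem hd (D.inv_mem a2), (Subgroup.mul_mem_cancel_right _ a3).1 a4⟩)
      (mem_sup_right ⟨R.mul_mem hr (R.inv_mem a1), a3⟩)
  obtain ⟨d', hd', r', hr', e⟩ := (mem_sup_of_le_normalizer_right (le_normalizer_of_le_centralizer
    (inf_le_left.trans (h.comm.trans (centralizer_anti inf_le_left))))).1
    (h2 ⟨h1 hdr, S.mul_mem (h.D_le hd) (h.R_le hr), hdr⟩)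
  exact (h.uniq hd'.1 hd hr'.1 hr e).1 ▸ hd'.2

end Red

end GW
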