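import Cfsg.Agent.Lib.GW.ProdB
import Cfsg.Agent.Lib.Gag.W5

/-!
# Tools for the simple case of the product theorem
-/

set_option autoImplicit false
set_option linter.unusedSectionVars false

namespace GW

open Cfsg GT FT GAG Subgroup
open scoped Pointwise commutatorElement

variable {G : Type*} [Group G]

/-- A family of normal subgroups `K b` of the centralizers of the involutions of `B`. -/
structure Side (B : Subgroup G) (K : G → Subgroup G) : Prop where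
  elem : IsElementaryAbelian 2 B
  nc : ¬ IsCyclic B
  norm : ∀ b, 𝐂[b] ≤ 𝐍(K b)
  comm : ∀ b ∈ B, b ≠ 1 → ∀ Y : Subgroup G, Inv B Y → Y ≤ 𝐂[b] → ⁅Y, B⁆ ≤ K b
  indep : ∀ b ∈ B, b ≠ 1 → ∀ b' ∈ B, b' ≠ 1 → 𝐂(B) ⊓ K b ≤ K b'

/-- the largest null subgroup of `Y` -/
def Tt (K : G → Subgroup G) (Y : Subgroup G) (b : G) : Subgroup G := ⁅Y, zpowers b⁆ ⊔ (Y ⊓ K b)

/-- null subgroups -/
def Nul (B : Subgroup G) (K : G → Subgroup G) (Y : Subgroup G) : Prop :=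
  ∀ b ∈ B, b ≠ 1 → Y ⊓ 𝐂[b] ≤ K b

variable {B Y Y' : Subgroup G} {K : G → Subgroup G} {b b' : G}

theorem Nul.mono (h : Nul B K Y) (h1 : Y' ≤ Y) : Nul B K Y' := fun b hb h2 =>
  (inf_le_inf_right _ h1).trans (h b hb h2)

theorem Tt_le (hb : b ∈ 𝐍(Y)) : Tt K Y b ≤ Y :=
  sup_le (le_normalizer_iff_commutator_le_left.1 (zpowers_le.2 hb)) inf_le_left

theorem conj_Tt_le (hK : ∀ g b, MulAut.conj g • K b ≤ K (g * b * g⁻¹)) (g : G) :
    MulAut.conj g • Tt K Y b ≤ Tt K (MulAut.conj g • Y) (g * b * g⁻¹) := by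
  rw [Tt, conj_smul_sup, conj_smul_commutator, conj_smul_zpowers, conj_smul_inf]
  exact sup_le_sup_left (inf_le_inf_left _ (hK g b)) _

theorem inv_inf_cent1 (h : Inv B Y) (hb : B ≤ 𝐂[b]) : Inv B (Y ⊓ 𝐂[b]) :=
  h.of_le inf_le_left (le_normalizer_inf h.norm (hb.trans le_normalizer))

variable [Finite G]

theorem Inv.cop {A : Subgroup G} (h : Inv B Y) (hB : IsPGroup 2 B) (hA : A ≤ B) : CoprimeAct A Y :=
  coprimeAct_of_isPGroup_left (hA.trans h.norm) (hB.to_le hA) h.odd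

namespace Side

variable (h : Side B K)
include h

theorem two : IsPGroup 2 B := elem_isPGroup h.elem

theorem le_cent1 (hb : b ∈ B) : B ≤ 𝐂[b] := (FT.elem_le_cent h.elem).trans (cent_le_cent1 hb)

theorem norm_Tt {H : Subgroup G} (h1 : H ≤ 𝐍(Y)) (h2 : H ≤ 𝐂[b]) : H ≤ 𝐍(Tt K Y b) :=
  le_normalizer_sup (le_normalizer_commutator h1 (le_normalizer_of_le_centralizer
    (by rwa [centralizer_zpowers]))) (le_normalizer_inf h1 (h2.trans (h.norm b)))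

theorem inv_Tt (hY : Inv B Y) (hb : b ∈ B) : Inv B (Tt K Y b) :=
  hY.of_le (Tt_le (hY.norm hb)) (h.norm_Tt hY.norm (h.le_cent1 hb))

theorem le_Tt (hY : Inv B Y') (h1 : Y' ≤ Y) (h2 : Nul B K Y') (hb : b ∈ B) (hb1 : b ≠ 1) :
    Y' ≤ Tt K Y b :=
  (Inv.cop hY h.two (zpowers_le.2 hb)).commutator_sup_inf_centralizer.symm.le.trans
    (sup_le_sup (commutator_mono h1 le_rfl) (le_inf (inf_le_left.trans h1)
      (by rw [centralizer_zpowers]; exact h2 b hb hb1)))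

theorem nul_of (hY : Inv B Y) (hb : b ∈ B) (hb1 : b ≠ 1) (h1 : Y ⊓ 𝐂(B) ≤ K b) : Nul B K Y :=
  fun b' hb' hb1' => by
    have h2 := inv_inf_cent1 hY (h.le_cent1 hb')
    exact (Inv.cop h2 h.two le_rfl).commutator_sup_inf_centralizer.symm.le.trans
      (sup_le (h.comm b' hb' hb1' _ h2 inf_le_right) fun x hx =>
        h.indep b hb hb1 b' hb' hb1' ⟨hx.2, h1 ⟨hx.1.1, hx.2⟩⟩)

theorem nul_Tt (hY : Inv B Y) (hb : b ∈ B) (hb1 : b ≠ 1) : Nul B K (Tt K Y b) := by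
  refine h.nul_of (h.inv_Tt hY hb) hb hb1 fun x hx => ?_
  have h1 : Inv B (Y ⊓ K b) := hY.of_le inf_le_left
    (le_normalizer_inf hY.norm ((h.le_cent1 hb).trans (h.norm b)))
  have h2 : Tt K Y b ≤ ⁅Y, B⁆ ⊔ (Y ⊓ K b ⊓ 𝐂(B)) := sup_le
    ((commutator_mono le_rfl (zpowers_le.2 hb)).trans le_sup_left)
    ((Inv.cop h1 h.two le_rfl).commutator_sup_inf_centralizer.symm.le.trans
      (sup_le_sup_right (commutator_mono inf_le_left le_rfl) _))
  obtain ⟨y, hy, c, hc, rfl⟩ := (mem_sup_of_le_normalizer_left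
    ((inf_le_left.trans inf_le_left).trans (normalizer_commutator_ge_left Y B))).1 (h2 hx.1)
  refine mul_mem (star h.elem h.nc hY.norm hY.odd (fun b' hb' hb1' w hw => ?_)
    ⟨hy, (Subgroup.mul_mem_cancel_right _ hc.2).1 hx.2⟩) hc.1.2
  exact h.indep b' hb' hb1' b hb hb1
    ⟨hw.2, h.comm b' hb' hb1' _ (inv_inf_cent1 hY (h.le_cent1 hb')) inf_le_right hw.1⟩

theorem Tt_eq (hY : Inv B Y) (hb : b ∈ B) (hb1 : b ≠ 1) (hb' : b' ∈ B) (hb1' : b' ≠ 1) :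
    Tt K Y b = Tt K Y b' :=
  le_antisymm (h.le_Tt (h.inv_Tt hY hb) (Tt_le (hY.norm hb)) (h.nul_Tt hY hb hb1) hb' hb1')
    (h.le_Tt (h.inv_Tt hY hb') (Tt_le (hY.norm hb')) (h.nul_Tt hY hb' hb1') hb hb1)

theorem le_of_forall {M : Subgroup G} (hY : Inv B Y) (hM : ∀ b ∈ B, b ≠ 1 → Y ⊓ 𝐂[b] ≤ M) : Y ≤ M :=
  have := h.elem.1
  le_of_forall_centralizer_le hY.norm (cop_of_odd h.two hY.odd) h.nc hM

theorem four_dvd : 4 ∣ Nat.card B := by
  obtain ⟨n, hn⟩ := exists_elemN_of_elem h.elem le_rfl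
  rw [hn.card]
  exact pow_dvd_pow 2 (show 2 ≤ n by have := mt hn.isCyclic_iff.2 h.nc; omega)

end Side

theorem le_cen_comm {c : G} {H L : Subgroup G} (hH : H ≤ 𝐂[c]) (hL : L ≤ 𝐂[c]) :
    H ≤ cen c L ↔ L ≤ cen c H := by
  rw [le_cen_iff hH hL, le_cen_iff hL hH, commutator_comm]

theorem le_cent_sup {c : G} {A L : Subgroup G} (hA : IsPGroup 2 A) (h1 : A ≤ 𝐂[c]) (h2 : L ≤ cen c A) :
    L ≤ (𝐂[c] ⊓ 𝐂(A)) ⊔ X c := by
  have hL := h2.trans (cen_le c A)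
  have h3 := (qim_le_iff hL).2 h2
  rwa [← qim_cent (coprimeAct_of_isPGroup_left (h1.trans (le_norm_X c)) hA (odd_X c)) h1, ← qim_inf_M 𝐂(A),
    qim_le_qim_iff (X_le c) hL inf_le_left] at h3

theorem le_norm_sup {c : G} {A : Subgroup G} (hA : IsPGroup 2 A) (h1 : A ≤ 𝐂[c]) (h2 : 𝐂[c] ≤ 𝐍(A ⊔ X c)) :
    𝐂[c] ≤ (𝐂[c] ⊓ 𝐍(A)) ⊔ X c := by
  have h3 := (qim_le_norm_iff (X_le c) le_rfl h1).2 h2
  rwa [← qim_norm_of_coprime (coprimeAct_of_isPGroup_left (h1.trans (le_norm_X c)) hA (odd_X c)) h1,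
    ← qim_inf_M 𝐍(A), qim_le_qim_iff (X_le c) le_rfl inf_le_left] at h3

theorem sq_of_inverts {S P : Subgroup G} (hS : IsSylowIn 2 S ⊤) (hP : SCl P S) (hc : S ≤ 𝐂(P)) {ρ t g : G}
    (h1 : ρ * ρ = 1) (h2 : g * ρ * g⁻¹ ∈ P) (ht : IsPElt 2 t) (h3 : ρ * t = t⁻¹ * ρ) : t * t = 1 := by
  have h4 : IsPGroup 2 (zpowers ρ ⊔ zpowers t : Subgroup G) :=
    (isPElt_of_sq h1).isPGroup_zpowers.to_sup_of_normal_right' ht.isPGroup_zpowers
      (zpowers_le.2 (mem_normalizer_of_conj_mem fun x hx => by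
        obtain ⟨n, rfl⟩ := mem_zpowers_iff.1 hx
        rw [← conj_zpow, h3, mul_inv_cancel_right]
        exact zpow_mem (inv_mem (mem_zpowers t)) n))
  obtain ⟨k, -, hk⟩ := hS.exists_conj_le h4 le_top
  have h5 := hc (conj_smul_le_iff.1 hk _ (mem_sup_right (mem_zpowers t))) _
    (hP.mem_of_conj h2 (conj_smul_le_iff.1 hk _ (mem_sup_left (mem_zpowers ρ))))
  rw [conj_mul, conj_mul, h3] at h5
  have h6 : t⁻¹ = t := mul_right_cancel (mul_left_cancel (mul_right_cancel h5))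
  exact eq_inv_iff_mul_eq_one.1 h6.symm

namespace Sym

variable {S D R M : Subgroup G} (h : Sym S D R)
include h

/-- the dihedral argument -/
theorem fin [IsSimpleGroup G] (hc : S ≤ 𝐂(D) ∨ S ≤ 𝐂(R)) {d u : G} (hd : d ∈ D) (hdS : S ≤ 𝐂[d])
    (hd2 : d * d = 1) (hu : u ∈ R) (hu2 : u * u = 1) (hu1 : u ≠ 1) (hC : 𝐂[d] ≤ M)
    (hM : ∀ q ∈ R, q * q = 1 → q ≠ 1 → 𝐂[d * q] ≤ M) : M = ⊤ := by
  have key : ∀ g, g * u * g⁻¹ ∈ M := fun g => by
    set y := g * u * g⁻¹ with hy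
    have hy2 : y * y = 1 := BT.conj_mul_self_of_sq hu2 g
    obtain ⟨a, k, ⟨j, rfl⟩, hk⟩ := Nat.exists_eq_two_pow_mul_odd (orderOf_pos (d * y)).ne'
    have i1 : ∀ n, d * (d * y) ^ n = ((d * y) ^ n)⁻¹ * d := BT.conj_pow_mul_of_sq hd2 hy2
    have i2 : ∀ n, y * (d * y) ^ n = ((d * y) ^ n)⁻¹ * y := fun n => by
      have h1 := BT.conj_pow_mul_of_sq hy2 hd2 n
      have h2 : y * d = (d * y)⁻¹ := by
        rw [mul_inv_rev, inv_eq_of_mul_eq_one_right hy2, inv_eq_of_mul_eq_one_right hd2]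
      rw [h2, inv_pow, inv_inv] at h1
      calc y * (d * y) ^ n = ((d * y) ^ n)⁻¹ * ((d * y) ^ n * y) * (d * y) ^ n := by group
        _ = _ := by rw [← h1]; group
    have e : d * (d * y) ^ (2 * j + 1) = ((d * y) ^ j)⁻¹ * y * (d * y) ^ j := by
      rw [← i2, pow_succ', ← mul_assoc, ← mul_assoc, hd2, one_mul, two_mul, pow_add, ← mul_assoc]
    have ht : IsPElt 2 ((d * y) ^ (2 * j + 1)) := isPElt_of_pow_eq_one (k := a) (by
      rw [← pow_mul, Nat.mul_comm (2 * j + 1), ← hk, pow_orderOf_eq_one])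
    have i3 := i1 (2 * j + 1)
    have i4 := i2 (2 * j + 1)
    generalize (d * y) ^ (2 * j + 1) = t at e ht i3 i4
    have t2 : t * t = 1 := by
      rcases hc with hc | hc
      · exact sq_of_inverts h.syl h.cD hc (g := 1) hd2 (by simpa using hd) ht i3
      · exact sq_of_inverts h.syl h.cR hc (g := g⁻¹) hy2 (by simpa [hy, mul_assoc] using hu) ht i4
    rw [inv_eq_of_mul_eq_one_right t2] at i3 i4
    obtain ⟨c, hc1, hc2⟩ := (h.syl_of_le hdS).exists_conj_mem ht (mem_cent1.2 i3.symm)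
    have e1 : d * (c * t * c⁻¹) = c * ((d * y) ^ j)⁻¹ * g * u * (c * ((d * y) ^ j)⁻¹ * g)⁻¹ := by
      calc d * (c * t * c⁻¹) = c * (d * t) * c⁻¹ := by
            rw [← mul_assoc, ← mul_assoc, ← mem_cent1.1 hc1]; group
        _ = _ := by rw [e, hy]; group
    have h1 := hM _ (h.cR u hu _ (e1 ▸ S.mul_mem (h.D_le hd) hc2)) (BT.conj_mul_self_of_sq hu2 _)
      (mt conj_eq_one_iff.1 hu1)
    rw [← e1, ← mul_assoc, hd2, one_mul] at h1
    have h2 : c * y * c⁻¹ ∈ M := h1 (mem_cent1.2 (by rw [conj_mul, conj_mul, i4]))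
    exact (Subgroup.mul_mem_cancel_left _ (hC hc1)).1
      ((Subgroup.mul_mem_cancel_right _ (M.inv_mem (hC hc1))).1 h2)
  rcases IsSimpleGroup.eq_bot_or_eq_top_of_normal (normalClosure {u}) inferInstance with e | e
  · exact (hu1 (mem_bot.1 (e ▸ subset_normalClosure rfl))).elim
  · refine top_le_iff.1 (e ▸ (closure_le _).2 fun x hx => ?_)
    obtain ⟨_, rfl, h1⟩ := Group.mem_conjugatesOfSet_iff.1 hx
    obtain ⟨g, rfl⟩ := isConj_iff.1 h1
    exact key g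

variable (hO : Op' 2 (⊤ : Subgroup G) = ⊥) (hab : S ≤ 𝐂(S)) (h8 : ¬ 8 ∣ Nat.card (omegaOne 2 D))
  (hL : Gen D ⊤ ≤ 𝐂(R))
include hab h8 hL

theorem cmp_inf {K : Subgroup G} (hK : Cmp K) (h1 : K ≤ Gen D ⊤) :
    Nat.card ↥(S ⊓ K) = 4 ∧ D ≤ K := by
  have hS := hK.sylow h.syl
  have h2 : ⁅K, K⁆ = K := (hK.eq_bot_or_eq (der_le K) (le_normalizer.trans (norm_le_norm_der K))).resolve_left
    fun e => hK.ns (have := comm_iff_le_cent.2 (commutator_eq_bot_iff_le_centralizer.1 e)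
      isSolvable_of_isMulCommutative)
  have h3 : S ⊓ K ≤ D := (le_inf (inf_le_right.trans h2.ge) le_rfl).trans
    (hS.commutator_inf_le fun x hx u hu hxu => by
      obtain ⟨d, hd, r, hr, rfl⟩ := h.decomp hx.1
      have e : u * (d * r) * u⁻¹ = u * d * u⁻¹ * r := by
        rw [mul_assoc _ _ r, ← (inv_mem (hL (h1 hu))) r hr]; group
      have h4 := h.cD d hd u ((Subgroup.mul_mem_cancel_right _ (h.R_le hr)).1 (e ▸ hxu.1))
      have := D.mul_mem hd (D.inv_mem h4)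
      rw [e]; convert this using 1; group)
  have := hK.simple
  have h4 : Nat.card ↥(S ⊓ K) = 4 := by
    rw [← card_subgroupOf_of_le (inf_le_right (a := S))]
    refine rank_two hK.ns ((isSylowIn_subgroupOf_top_iff inf_le_right).2 hS)
      ((sgOf_le_cent_iff inf_le_right inf_le_right).2 (inf_le_left.trans
        (hab.trans (centralizer_anti inf_le_left)))) fun h5 => h8 (h5.trans ?_)
    rw [← sgOf_omegaOne 2 inf_le_right, card_subgroupOf_of_le ((omegaOne_le _ _).trans inf_le_right)]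
    exact card_dvd_of_le (omegaOne_mono 2 h3)
  have h5 := (klein_of_four hS h4 (not_hasNormalPComplement_of_simple hK.ns hK.two_dvd)).1
  have h6 : S ⊓ K = omegaOne 2 D := Subgroup.eq_of_le_of_card_ge
    (fun x hx => mem_omegaOne (h3 hx) (by rw [sq, h5 x hx])) (by
      obtain ⟨n, hn⟩ := (h.two_D.to_le (omegaOne_le 2 D)).exists_card_eq
      rw [hn] at h8
      rw [hn, h4]
      exact Nat.pow_le_pow_right two_pos (show n ≤ 2 from by_contra fun h7 =>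
        h8 (pow_dvd_pow 2 (show 3 ≤ n by omega))))
  refine ⟨h4, fun t ht => ?_⟩
  obtain ⟨v, hv, u, hu, rfl⟩ := hK.exists_mul h.syl hab (h.D_le ht)
  by_cases hu1 : u = 1
  · rw [hu1, mul_one]; exact hv.2
  obtain ⟨_, ⟨k, rfl⟩, w2, w1⟩ := exists_invol (isPElt_of_mem h.syl.isPGroup hu.1).isPGroup_zpowers
    (zpowers_ne_bot.2 hu1)
  exact (w1 (hK.eq_one_of_cent (h6.ge (mem_omegaOne (D.zpow_mem
    ((Subgroup.mul_mem_cancel_left _ (h3 hv)).1 ht) k) (by rw [sq]; exact w2))).2 ((𝐂(K)).zpow_mem hu.2 k))).elim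

include hO in
theorem mem_cent_of_ab (hN : 𝐍(S) ≤ M) (hM : M ≠ ⊤) {v : G} (hv : v ∈ D) (hv1 : v ≠ 1) (hC : 𝐂[v] ≤ M)
    {d : G} (hd : Odd (orderOf d)) (hdM : d ∈ M) (hdv : d * v = v * d) : d ∈ 𝐂(Gen D ⊤) := by
  obtain ⟨K, hK, hKM⟩ : ∃ K, Cmp K ∧ ¬ K ≤ M := by
    by_contra hne
    push Not at hne
    exact hM (eq_top_of_cmp hO h.syl hab hne hN)
  have hn := le_norm_Gen D ⊤
  have h1 : K ≤ Gen D ⊤ := by
    rcases hK.eq_bot_or_eq inf_le_left (le_normalizer_inf le_normalizer (le_top.trans hn)) with e | e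
    · exact (hKM ((commute_of_normal_of_disjoint' ((Gen_le_Y2 h.two_D).trans (hK.Y2_le_norm ⊤))
        (le_top.trans hn) (disjoint_iff.2 e)).trans ((cent_le_cent1 (le_Gen le_top hv)).trans hC))).elim
    · exact e.ge.trans inf_le_right
  obtain ⟨h2, h3⟩ := h.cmp_inf hab h8 hL hK h1
  have h4 : ⊤ ≤ 𝐍(K) := fun g _ => by
    by_contra hne
    have h5 := hK.le_cent_of_ne (hK.conj g) fun e => hne (conj_smul_eq_iff_mem_normalizer.1 e.symm)
    exact hv1 ((hK.conj g).eq_one_of_cent ((h.cmp_inf hab h8 hL (hK.conj g) ((conj_smul_mono g h1).trans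
      (conj_smul_eq_of_mem_normalizer (hn (mem_top g))).le)).2 hv) (h5 (h3 hv)))
  have := hK.simple
  exact centralizer_anti (h.Gen_le le_top h4 h3) (a5type hK.ns (hK.sylow h.syl) h2 ⟨h.D_le hv, h3 hv⟩ hv1
    (inf_le_right.trans hC) ((hK.norm_T h.syl hab).trans hN) hKM hd (h4 (mem_top d)) hdM hdv)

end Sym

end GW
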