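import Cfsg.Agent.Lib.GW.ProdC

/-!
# The simple case of the product theorem: the signalizer functor
-/

set_option autoImplicit false
set_option linter.unusedSectionVars false

namespace GW

open Cfsg GT FT GAG Subgroup
open scoped Pointwise commutatorElement

variable {G : Type*} [Group G]

/-- The hypotheses in the simple case. -/
structure Ctx (S D R : Subgroup G) (z r₀ : G) : Prop extends Red S D R where
  simple : IsSimpleGroup G
  ne : ⁅Gen D ⊤, Gen R ⊤⁆ ≠ ⊥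
  cent : S ≤ 𝐂(R)
  zD : z ∈ D
  z2 : z * z = 1
  z1 : z ≠ 1
  zS : S ≤ 𝐂[z]
  rA : r₀ ∈ omegaOne 2 R
  r1 : r₀ ≠ 1
  fus : ∀ y ∈ D, y * y = 1 → y ≠ 1 → ∃ g : G, g * y * g⁻¹ = z
  uniq : ∀ y ∈ D, y * y = 1 → ∀ g ∈ 𝐂[z], g * y * g⁻¹ ∈ D → g * y * g⁻¹ * y⁻¹ ∈ zpowers z

/-- noncyclic elementary subgroups of `D` containing `z` -/
structure IsV (D : Subgroup G) (z : G) (V : Subgroup G) : Prop where
  le : V ≤ D
  mem : z ∈ V
  elem : IsElementaryAbelian 2 V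
  nc : ¬ IsCyclic V

/-- the centralizer of the closure of `D` in `C(r)` modulo the core -/
abbrev KR (D : Subgroup G) (r : G) : Subgroup G := cen r (Gen D 𝐂[r])

/-- the signalizer functor -/
def Th (D : Subgroup G) (z r₀ a : G) : Subgroup G := Tt X (X a) z ⊓ Tt (KR D) (X a) r₀

/-- its completion -/
def Wc (D R : Subgroup G) (z r₀ : G) : Subgroup G := ⨆ r ∈ omegaOne 2 R, ⨆ _ : r ≠ 1, Th D z r₀ r

/-- `M` contains the centralizers of the mixed four-groups -/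
def Mix (D R M : Subgroup G) : Prop :=
  ∀ y ∈ D, y * y = 1 → y ≠ 1 → ∀ r ∈ omegaOne 2 R, r ≠ 1 → 𝐂[y] ⊓ 𝐂[r] ≤ M

theorem IsV.sq {D V : Subgroup G} {z v : G} (h : IsV D z V) (hv : v ∈ V) : v * v = 1 := by
  rw [← pow_two]; exact h.elem.2 v hv

theorem conj_KR_le (D : Subgroup G) (g r : G) : MulAut.conj g • KR D r ≤ KR D (g * r * g⁻¹) := by
  have := conj_cen_le (Gen_le D 𝐂[r]) g
  rwa [conj_Gen, conj_smul_centralizer_singleton] at this

variable [Finite G]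

theorem inv_X {B : Subgroup G} {a : G} (h : B ≤ 𝐂[a]) : Inv B (X a) := ⟨h.trans (le_norm_X a), odd_X a⟩

theorem Sym.exists_two {S D R : Subgroup G} (h : Sym S D R) {t : G} (ht : t ∈ D) (h2 : t * t = 1) (h1 : t ≠ 1)
    (hn : ¬ ∀ g : G, Commute t (g * t * g⁻¹) → g * t * g⁻¹ = t) :
    ∃ y ∈ D, y * y = 1 ∧ y ≠ 1 ∧ y ≠ t ∧ ∃ g, g * t * g⁻¹ = y := by
  push Not at hn
  obtain ⟨g, h3, h4⟩ := hn
  obtain ⟨k, a1, a2⟩ := exists_conj_pair h.syl (isPElt_of_sq h2) ((isPElt_of_sq h2).conj g) h3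
  have e1 : k * (g * t * g⁻¹) * k⁻¹ = k * g * t * (k * g)⁻¹ := by group
  by_cases e : k * t * k⁻¹ = t
  · refine ⟨_, h.cD t ht (k * g) (e1 ▸ a2), BT.conj_mul_self_of_sq h2 _, mt conj_eq_one_iff.1 h1,
      fun e2 => h4 ?_, _, rfl⟩
    simpa using (e1.trans e2).trans e.symm
  · exact ⟨_, h.cD t ht k a1, BT.conj_mul_self_of_sq h2 _, mt conj_eq_one_iff.1 h1, e, _, rfl⟩

theorem eq_bot_or_top [IsSimpleGroup G] {N : Subgroup G} (h : 𝐍(N) = ⊤) : N = ⊥ ∨ N = ⊤ :=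
  IsSimpleGroup.eq_bot_or_eq_top_of_normal N (normalizer_eq_top_iff.1 h)

theorem eq_bot_of_norm [IsSimpleGroup G] {z : G} (h2 : z * z = 1) (h1 : z ≠ 1) {N : Subgroup G}
    (h : 𝐍(N) = ⊤) (ho : ¬ 2 ∣ Nat.card N) : N = ⊥ :=
  (eq_bot_or_top h).resolve_right fun e => h1 ((isPElt_of_sq h2).eq_one_of_isPRegular
    (isPRegular_of_mem ho (e ▸ mem_top z)))

namespace Ctx

variable {S D R V Y M : Subgroup G} {z r₀ a b r v y : G} (h : Ctx S D R z r₀)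
include h

theorem core : Op' 2 (⊤ : Subgroup G) = ⊥ :=
  have := h.simple
  eq_bot_of_norm h.z2 h.z1 (top_le_iff.1 (le_norm_piCoreOf _ _)) (not_dvd_card_Op' 2 _)

theorem cent_ne_top (h1 : a ≠ 1) : 𝐂[a] ≠ ⊤ := fun e => by
  have := h.simple
  have h2 : ⊤ ≤ 𝐂(zpowers a) := by rw [centralizer_zpowers, e]
  rcases eq_bot_or_top (top_le_iff.1 (h2.trans (cent_le_norm _))) with h3 | h3
  · exact h1 (zpowers_eq_bot.1 h3)
  · rw [h3] at h2
    exact h.ne (commutator_eq_bot_iff_le_centralizer.2 (le_top.trans (h2.trans (centralizer_anti le_top))))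

theorem R_comm : R ≤ 𝐂(R) := h.R_le.trans h.cent

theorem elem_A : IsElementaryAbelian 2 (omegaOne 2 R) :=
  have := comm_iff_le_cent.2 h.R_comm
  elem_omegaOne_of_comm 2 R

theorem sq_A (hr : r ∈ omegaOne 2 R) : r * r = 1 := by rw [← sq]; exact h.elem_A.2 r hr

omit h [Finite G] in
theorem mem_A (hr : r ∈ R) (h2 : r * r = 1) : r ∈ omegaOne 2 R := mem_omegaOne hr (by rwa [sq])

theorem S_le_cent_A : S ≤ 𝐂(omegaOne 2 R) := h.cent.trans (centralizer_anti (omegaOne_le 2 R))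

theorem S_le (hr : r ∈ omegaOne 2 R) : S ≤ 𝐂[r] := h.S_le_cent_A.trans (cent_le_cent1 hr)

theorem A_le : omegaOne 2 R ≤ S := (omegaOne_le 2 R).trans h.R_le

theorem nc_A : ¬ IsCyclic (omegaOne 2 R) := by
  obtain ⟨y, h1, h2, h3, h4, -⟩ := h.toSym.symm.exists_two (omegaOne_le 2 R h.rA) (h.sq_A h.rA) h.r1
    (h.toRed.symm.not_isol h.core (h.ne_symm h.ne) (omegaOne_le 2 R h.rA) (h.sq_A h.rA) h.r1)
  exact not_cyclic_of_two (mem_A h1 h2) h.rA h2 (h.sq_A h.rA) h3 h.r1 h4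

theorem exists_V (hy : y ∈ D) (h2 : y * y = 1) : ∃ V, IsV D z V ∧ y ∈ V := by
  have key : ∀ y ∈ D, y * y = 1 → y ∉ zpowers z → IsV D z (zpowers z ⊔ zpowers y) := fun y hy h2 h3 =>
    have h4 := elemN_two_of_pair (p := 2) hy h.zD (mem_cent1.1 (h.zS (h.D_le hy))) (by rwa [sq])
      (by rw [sq, h.z2]) h.z1 h3
    ⟨h4.le, mem_sup_left (mem_zpowers z), h4.elem, h4.not_cyclic le_rfl⟩
  by_cases h3 : y ∈ zpowers z
  · obtain ⟨w, h4, h5, h6, h7, -⟩ := h.exists_two h.zD h.z2 h.z1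
      (h.not_isol h.core h.ne h.zD h.z2 h.z1)
    exact ⟨_, key w h4 h5 fun e => (mem_zpowers_of_sq h.z2 e).elim h6 h7, mem_sup_left h3⟩
  · exact ⟨_, key y hy h2 h3, mem_sup_right (mem_zpowers y)⟩

theorem norm_z (hV : V ≤ D) (hz : z ∈ V) (h2 : ∀ y ∈ V, y * y = 1) : 𝐂[z] ≤ 𝐍(V ⊔ X z) := by
  have h1 : 𝐂[z] ≤ 𝐂(zpowers z) := (centralizer_zpowers z).ge
  have h3 : zpowers z ≤ 𝐂[z] := zpowers_le.2 (mem_cent1.2 rfl)
  have := subgroupOf_normal (le_normalizer_sup (h1.trans (cent_le_norm _)) (le_norm_X z))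
  refine fun g hg => norm_of_conj_le ?_
  rw [conj_smul_sup, conj_smul_eq_of_mem_normalizer (le_norm_X z hg)]
  refine sup_le (conj_smul_le_iff.2 fun y hy => ?_) le_sup_right
  have h4 := zstar_mod (N := zpowers z ⊔ X z) (sup_le h3 (X_le z)) (h.syl_of_le h.zS)
    (core_quo_central (isPElt_of_sq h.z2).isPGroup_zpowers h1 h3 rfl) (h.zS (h.D_le (hV hy))) (h2 y hy)
    (fun k hk h5 => mem_sup_left (h.uniq y (hV hy) (h2 y hy) k hk (h.cD y (hV hy) k h5))) hg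
  exact (Subgroup.mul_mem_cancel_right _ (inv_mem (mem_sup_left hy))).1
    (sup_le_sup_right (zpowers_le.2 hz) _ h4)

theorem norm_v (hV : IsV D z V) (hv : v ∈ V) (h1 : v ≠ 1) : 𝐂[v] ≤ 𝐍(V ⊔ X v) := by
  obtain ⟨g, hg⟩ := h.fus v (hV.le hv) (hV.sq hv) h1
  obtain ⟨c, hc, h2⟩ := (h.syl_of_le h.zS).exists_conj_le (isPGroup_conj_smul g (elem_isPGroup hV.elem))
    ((conj_smul_mono g ((FT.elem_le_cent hV.elem).trans (cent_le_cent1 hv))).trans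
      (by rw [conj_smul_centralizer_singleton, hg]))
  rw [conj_smul_conj_smul] at h2
  have e : c * g * v * (c * g)⁻¹ = z := by
    calc c * g * v * (c * g)⁻¹ = c * (g * v * g⁻¹) * c⁻¹ := by group
      _ = z := by rw [hg, mem_cent1.1 hc]; group
  have h3 := h.norm_z (V := MulAut.conj (c * g) • V) (conj_smul_le_iff.2 fun y hy =>
    h.cD y (hV.le hy) _ (conj_smul_le_iff.1 h2 y hy)) (e ▸ conj_mem_conj_smul.2 hv) fun y hy => by
      obtain ⟨w, hw, rfl⟩ := mem_conj_smul'.1 hy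
      exact BT.conj_mul_self_of_sq (hV.sq hw) _
  rwa [← e, ← conj_X, ← conj_smul_sup, ← conj_smul_normalizer, ← conj_smul_centralizer_singleton,
    conj_smul_le_conj_smul_iff] at h3

theorem cent_v_le (hV : IsV D z V) (hv : v ∈ V) (h1 : v ≠ 1) : 𝐂[v] ≤ (𝐂[v] ⊓ 𝐍(V)) ⊔ X v :=
  le_norm_sup (elem_isPGroup hV.elem) ((FT.elem_le_cent hV.elem).trans (cent_le_cent1 hv)) (h.norm_v hV hv h1)

theorem side_V (hV : IsV D z V) : Side V X where
  elem := hV.elem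
  nc := hV.nc
  norm := le_norm_X
  comm v hv h1 Y hY h2 := le_of_odd_of_le_sup (elem_isPGroup hV.elem)
    (((FT.elem_le_cent hV.elem).trans (cent_le_cent1 hv)).trans (le_norm_X v))
    (odd_of_le hY.odd (le_normalizer_iff_commutator_le_left.1 hY.norm))
    ((commutator_mono le_rfl le_sup_left).trans
      (le_normalizer_iff_commutator_le_right.1 (h2.trans (h.norm_v hV hv h1))))
  indep v hv _ v' hv' h1 := by
    refine (inf_comm 𝐂(V) (X v) ▸ piCoreOf_inf_le _ (cent_le_cent1 hv)).trans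
      (le_core_of_le_sup (h.cent_v_le hV hv' h1) ((piCoreOf_le _ _).trans (cent_le_cent1 hv'))
        (inf_le_right.trans ?_) inf_le_left (not_dvd_card_Op' 2 _))
    exact (normalizer_le_normalizer_centralizer V).trans (norm_le_norm_piCoreOf _ _)

section R

variable (hr : r ∈ omegaOne 2 R) (h1 : r ≠ 1)
include hr h1

theorem L_le_cen : Gen D 𝐂[r] ≤ cen r (Gen R 𝐂[r]) :=
  (le_cen_iff (Gen_le _ _) (Gen_le _ _)).2 (h.sub' (h.cent_ne_top h1) (h.S_le hr))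

theorem N_le_cen : Gen R 𝐂[r] ≤ KR D r := (le_cen_comm (Gen_le _ _) (Gen_le _ _)).1 (h.L_le_cen hr h1)

omit h1 in
theorem D_le_L : D ≤ Gen D 𝐂[r] := le_Gen (h.D_le.trans (h.S_le hr))

omit h1 in
theorem R_le_N : R ≤ Gen R 𝐂[r] := le_Gen (h.R_le.trans (h.S_le hr))

theorem L_le_sup : Gen D 𝐂[r] ≤ 𝐂(omegaOne 2 R) ⊔ X r :=
  (le_cent_sup (elem_isPGroup h.elem_A) (h.A_le.trans (h.S_le hr)) ((h.L_le_cen hr h1).trans
    (cen_anti ((omegaOne_le 2 R).trans (h.R_le_N hr))))).trans (sup_le_sup_right inf_le_right _)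

theorem N_le_sup {B : Subgroup G} (hB : B ≤ D) : Gen R 𝐂[r] ≤ (𝐂[r] ⊓ 𝐂(B)) ⊔ X r :=
  le_cent_sup (h.two_D.to_le hB) (hB.trans (h.D_le.trans (h.S_le hr))) ((h.N_le_cen hr h1).trans
    (cen_anti (hB.trans (h.D_le_L hr))))

theorem L_le_LA : Gen D 𝐂[r] ≤ X r ⊔ Gen D 𝐂(omegaOne 2 R) :=
  (Gen_le_Gen le_rfl).trans (h.cD.Gen_le h.two_D ((h.syl_of_le (h.S_le hr)).inf_of_le_normalizer
    (Gen_le _ _) (le_norm_Gen _ _)) inf_le_left ((h.L_le_sup hr h1).trans (sup_le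
      (le_normalizer_sup ((cent_le_cent1 hr).trans (le_norm_X r)) (le_norm_Gen _ _))
      (le_sup_left.trans le_normalizer)))
    (inf_le_left.trans ((le_Gen (h.D_le.trans h.S_le_cent_A)).trans le_sup_right)))

end R

theorem side_A : Side (omegaOne 2 R) (KR D) where
  elem := h.elem_A
  nc := h.nc_A
  norm r := le_norm_cen le_rfl (le_norm_Gen _ _)
  comm r hr h1 Y _ h2 := (commutator_mono le_rfl ((omegaOne_le 2 R).trans ((h.R_le_N hr).trans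
    (h.N_le_cen hr h1)))).trans (le_normalizer_iff_commutator_le_right.1
      (le_norm_cen h2 (h2.trans (le_norm_Gen _ _))))
  indep r hr _ r' hr' h1 x hx := by
    have a1 : ∀ {r}, r ∈ omegaOne 2 R → Gen D 𝐂(omegaOne 2 R) ≤ Gen D 𝐂[r] := fun hr =>
      Gen_mono (cent_le_cent1 hr)
    have a2 : Gen D 𝐂(omegaOne 2 R) ⊓ X r ≤ X r' := (le_inf le_sup_left (inf_le_left.trans (a1 hr'))).trans
      (inf_le_core (Gen_le _ _) (le_norm_Gen _ _) (h.L_le_sup hr' h1)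
        (inf_le_left.trans ((a1 hr').trans (Gen_le _ _)))
        (le_normalizer_inf (le_norm_Gen _ _) ((cent_le_cent1 hr).trans (le_norm_X r))) (cent_le_cent1 hr')
        (odd_of_le (odd_X r) inf_le_right))
    have a3 := (a1 hr').trans (Gen_le _ _)
    refine cen_anti (h.L_le_LA hr' h1) ?_
    rw [cen_X_sup a3, mem_cen_iff a3]
    refine ⟨cent_le_cent1 hr' hx.1, fun l hl => a2 ⟨?_, ((mem_cen_iff (Gen_le _ _)).1 hx.2).2 l (a1 hr hl)⟩⟩
    exact Subgroup.mul_mem _ (conj_mem_of_mem_normalizer (le_norm_Gen _ _ hx.1) hl) (Subgroup.inv_mem _ hl)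

theorem comm_mixed (hy : y ∈ D) (hr : r ∈ omegaOne 2 R) : ⁅𝐂[y * r], zpowers r⁆ ≤ X (y * r) :=
  zstar_in (mem_cent1.2 (by
    rw [← mul_assoc, ← h.mul_comm hy (omegaOne_le 2 R hr)])) (h.sq_A hr)
    fun _ hg => h.eq_of_commute hy (omegaOne_le 2 R hr) hg

omit h [Finite G] in
theorem cent_mixed : 𝐂[y * r] ⊓ 𝐂(zpowers r) ≤ 𝐂[y] ⊓ 𝐂[r] := fun x hx => by
  have h1 := mem_cent1.1 (cent_le_cent1 (mem_zpowers r) hx.2)
  refine ⟨mem_cent1.2 (mul_right_cancel (b := r) ?_), mem_cent1.2 h1⟩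
  rw [mul_assoc, mem_cent1.1 hx.1, mul_assoc, mul_assoc, h1]

theorem cent_mixed_le (hy : y ∈ D) (hr : r ∈ omegaOne 2 R) :
    𝐂[y * r] ≤ (𝐂[y * r] ⊓ 𝐂(zpowers r)) ⊔ X (y * r) :=
  le_sup_of_comm (isPElt_of_sq (h.sq_A hr)).isPGroup_zpowers (zpowers_le.2 (mem_cent1.2 (by
    rw [← mul_assoc, ← h.mul_comm hy (omegaOne_le 2 R hr)]))) (h.comm_mixed hy hr)

section V

variable (hV : IsV D z V)
include hV

theorem A_le_cent : omegaOne 2 R ≤ 𝐂(V) :=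
  le_cent_comm.1 (hV.le.trans (h.D_le.trans h.S_le_cent_A))

theorem elem_E : IsElementaryAbelian 2 (V ⊔ omegaOne 2 R) := elem_sup hV.elem h.elem_A (h.A_le_cent hV)

theorem E_le (ha : a ∈ V ⊔ omegaOne 2 R) : V ⊔ omegaOne 2 R ≤ 𝐂[a] :=
  (FT.elem_le_cent (h.elem_E hV)).trans (cent_le_cent1 ha)

/-- balance -/
theorem inf_le_X (i : Inv (V ⊔ omegaOne 2 R) Y) (n1 : Nul V X Y) (n2 : Nul (omegaOne 2 R) (KR D) Y)
    (hb : b ∈ V ⊔ omegaOne 2 R) (hb1 : b ≠ 1) : Y ⊓ 𝐂[b] ≤ X b := by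
  have i1 := inv_inf_cent1 i (h.E_le hV hb)
  have hE := elem_isPGroup (h.elem_E hV)
  obtain ⟨v, hv, r, hr, rfl⟩ := (mem_sup_of_le_normalizer_left ((h.A_le_cent hV).trans (cent_le_norm V))).1 hb
  by_cases e1 : r = 1
  · rw [e1, mul_one] at hb1 ⊢
    exact n1 v hv hb1
  by_cases e2 : v = 1
  · rw [e2, one_mul] at i1 ⊢
    refine le_core_of_comm (h.syl_of_le (h.S_le hr)) (h.sup ▸ sup_le_sup (h.D_le_L hr) (h.R_le_N hr))
      (sup_le (Gen_le _ _) (Gen_le _ _)) (le_normalizer_sup (le_norm_Gen _ _) (le_norm_Gen _ _)) i1.odd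
      inf_le_right ?_
    rw [← le_cen_iff inf_le_right (sup_le (Gen_le _ _) (Gen_le _ _)),
      le_cen_comm inf_le_right (sup_le (Gen_le _ _) (Gen_le _ _))]
    refine sup_le ((le_cen_comm inf_le_right (Gen_le _ _)).1 (n2 r hr e1))
      ((le_cen_comm inf_le_right (Gen_le _ _)).1
        ((Inv.cop i1 hE le_sup_left).commutator_sup_inf_centralizer.symm.le.trans (sup_le ?_ ?_)))
    · exact ((commutator_mono le_rfl (hV.le.trans (h.D_le_L hr))).trans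
        (le_normalizer_iff_commutator_le_right.1 (inf_le_right.trans (le_norm_Gen _ _)))).trans
        (h.L_le_cen hr e1)
    · refine le_trans (b := X z ⊓ (𝐂[r] ⊓ 𝐂(V)))
        (fun x hx => ⟨n1 z hV.mem h.z1 ⟨hx.1.1, cent_le_cent1 hV.mem hx.2⟩, hx.1.2, hx.2⟩) ((le_cen_iff (inf_le_right.trans inf_le_left) (Gen_le _ _)).2 ?_)
      exact comm_le_core (Gen_le _ _) (le_norm_Gen _ _) (h.N_le_sup hr e1 hV.le)
        (inf_le_right.trans inf_le_left) (le_normalizer_inf (inf_le_right.trans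
          ((cent_le_cent1 hV.mem).trans (le_norm_X z))) le_normalizer) inf_le_left
        (odd_of_le (odd_X z) inf_le_left)
  refine (Inv.cop i1 hE (zpowers_le.2 (mem_sup_right hr))).commutator_sup_inf_centralizer.symm.le.trans
    (sup_le ((commutator_mono inf_le_right le_rfl).trans (h.comm_mixed (hV.le hv) hr)) ?_)
  refine le_trans (b := X v ⊓ (𝐂[v * r] ⊓ 𝐂(zpowers r)))
    (fun x hx => ⟨n1 v hv e2 ⟨hx.1.1, (cent_mixed ⟨hx.1.2, hx.2⟩).1⟩, hx.1.2, hx.2⟩) ?_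
  exact le_core_of_le_sup (h.cent_mixed_le (hV.le hv) hr) (inf_le_right.trans inf_le_left)
    (le_normalizer_inf (cent_mixed.trans (inf_le_left.trans (le_norm_X v))) le_normalizer) inf_le_left
    (odd_of_le (odd_X v) inf_le_left)

variable (ha : V ⊔ omegaOne 2 R ≤ 𝐂[a])
include ha

theorem Th_eq (hv : v ∈ V) (hv1 : v ≠ 1) (hr : r ∈ omegaOne 2 R) (hr1 : r ≠ 1) :
    Th D z r₀ a = Tt X (X a) v ⊓ Tt (KR D) (X a) r := by
  rw [Th, (h.side_V hV).Tt_eq (inv_X (le_sup_left.trans ha)) hV.mem h.z1 hv hv1,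
    h.side_A.Tt_eq (inv_X (le_sup_right.trans ha)) h.rA h.r1 hr hr1]

omit h in
theorem Th_le : Th D z r₀ a ≤ X a :=
  inf_le_left.trans (Tt_le (le_norm_X a (ha (mem_sup_left hV.mem))))

theorem norm_Th {H : Subgroup G} (hv : v ∈ V) (hv1 : v ≠ 1) (hr : r ∈ omegaOne 2 R) (hr1 : r ≠ 1)
    (h1 : H ≤ 𝐂[a]) (h2 : H ≤ 𝐂[v]) (h3 : H ≤ 𝐂[r]) : H ≤ 𝐍(Th D z r₀ a) := by
  rw [h.Th_eq hV ha hv hv1 hr hr1]
  exact le_normalizer_inf ((h.side_V hV).norm_Tt (h1.trans (le_norm_X a)) h2)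
    (h.side_A.norm_Tt (h1.trans (le_norm_X a)) h3)

theorem inv_Th : Inv (V ⊔ omegaOne 2 R) (Th D z r₀ a) :=
  (inv_X ha).of_le (Th_le hV ha) (h.norm_Th hV ha hV.mem h.z1 h.rA h.r1 ha
    (h.E_le hV (mem_sup_left hV.mem)) (h.E_le hV (mem_sup_right h.rA)))

theorem nul_V : Nul V X (Th D z r₀ a) :=
  ((h.side_V hV).nul_Tt (inv_X (le_sup_left.trans ha)) hV.mem h.z1).mono inf_le_left

omit hV in
theorem nul_A : Nul (omegaOne 2 R) (KR D) (Th D z r₀ a) :=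
  (h.side_A.nul_Tt (inv_X (le_sup_right.trans ha)) h.rA h.r1).mono inf_le_right

omit ha in
theorem le_Th (i : Inv (V ⊔ omegaOne 2 R) Y) (n1 : Nul V X Y) (n2 : Nul (omegaOne 2 R) (KR D) Y)
    (h1 : Y ≤ X a) : Y ≤ Th D z r₀ a :=
  le_inf ((h.side_V hV).le_Tt ⟨le_sup_left.trans i.norm, i.odd⟩ h1 n1 hV.mem h.z1)
    (h.side_A.le_Tt ⟨le_sup_right.trans i.norm, i.odd⟩ h1 n2 h.rA h.r1)

omit ha

theorem spec_W : Inv (V ⊔ omegaOne 2 R) (Wc D R z r₀) ∧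
    ∀ a ∈ V ⊔ omegaOne 2 R, a ≠ 1 → Wc D R z r₀ ⊓ 𝐂[a] = Th D z r₀ a := by
  have hc : ∀ {n : ℕ}, ¬ 2 ∣ n → n.Coprime (2 * 2) := fun h =>
    have := ((Nat.Prime.coprime_iff_not_dvd Nat.prime_two).2 h).symm
    this.mul_right this
  have h8 : 2 ^ 3 ∣ Nat.card ↥(V ⊔ omegaOne 2 R) := by
    rw [card_sup_of_disjoint_of_le_normalizer (le_normalizer_of_le_centralizer (le_cent_comm.1 (h.A_le_cent hV)))
      (Subgroup.disjoint_def.2 fun h1 h2 => h.eq_one (hV.le h1) (omegaOne_le 2 R h2))]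
    exact dvd_trans (by norm_num) (mul_dvd_mul (h.side_V hV).four_dvd h.side_A.four_dvd)
  obtain ⟨W, h1, -, h2, h3, -⟩ := SF.signalizer (θ := Th D z r₀) (h.elem_E hV) h8
    (fun a ha _ => (Th_le hV (h.E_le hV ha)).trans (X_le a)) (fun a ha _ => (h.inv_Th hV (h.E_le hV ha)).norm)
    (fun a ha _ => odd_solv (h.inv_Th hV (h.E_le hV ha)).odd)
    (fun a ha _ => hc (h.inv_Th hV (h.E_le hV ha)).odd) fun a ha _ b hb hb1 =>
      h.le_Th hV (inv_inf_cent1 (h.inv_Th hV (h.E_le hV ha)) (h.E_le hV hb))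
        ((h.nul_V hV (h.E_le hV ha)).mono inf_le_left) ((h.nul_A (h.E_le hV ha)).mono inf_le_left)
        (h.inf_le_X hV (h.inv_Th hV (h.E_le hV ha)) (h.nul_V hV (h.E_le hV ha)) (h.nul_A (h.E_le hV ha)) hb hb1)
  have h4 : ¬ 2 ∣ Nat.card W := fun h5 =>
    absurd (Nat.dvd_gcd h5 (by norm_num : 2 ∣ 2 * 2)) (by rw [h2]; norm_num)
  have h5 : W = Wc D R z r₀ := le_antisymm
    (h.side_A.le_of_forall ⟨le_sup_right.trans h1, h4⟩ fun r hr hr1 =>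
      (h3 r (mem_sup_right hr) hr1).le.trans (le_iSup₂_of_le r hr (le_iSup_of_le hr1 le_rfl)))
    (iSup₂_le fun r hr => iSup_le fun hr1 => (h3 r (mem_sup_right hr) hr1).ge.trans inf_le_left)
  exact h5 ▸ ⟨⟨h1, h4⟩, h3⟩

theorem norm_W_of {B : Subgroup G} (hB : B ≤ V ⊔ omegaOne 2 R) (hnc : ¬ IsCyclic B) {g : G}
    (hg : ∀ e ∈ B, e ≠ 1 → g ∈ 𝐍(Th D z r₀ e)) : g ∈ 𝐍(Wc D R z r₀) := by
  obtain ⟨h1, h2⟩ := h.spec_W hV
  have := (elem_of_le (h.elem_E hV) hB).1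
  refine conj_smul_eq_iff_mem_normalizer.1 (Subgroup.eq_of_le_of_card_ge (le_of_forall_centralizer_le
    (hB.trans h1.norm) (cop_of_odd ((elem_isPGroup (h.elem_E hV)).to_le hB) h1.odd) hnc fun e he h3 => ?_)
    (card_conj_smul g _).le).symm
  rw [h2 e (hB he) h3, ← conj_smul_eq_of_mem_normalizer (hg e he h3)]
  exact conj_smul_mono g ((h2 e (hB he) h3).ge.trans inf_le_left)

end V

theorem mix_W : Mix D R 𝐍(Wc D R z r₀) := fun y hy h2 h1 r hr hr1 g hg => by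
  obtain ⟨V, hV, hyV⟩ := h.exists_V hy h2
  have hB : zpowers y ⊔ zpowers r ≤ V ⊔ omegaOne 2 R := sup_le_sup (zpowers_le.2 hyV) (zpowers_le.2 hr)
  refine h.norm_W_of hV hB (not_cyclic_of_two (mem_sup_left (mem_zpowers y)) (mem_sup_right (mem_zpowers r))
    h2 (h.sq_A hr) h1 hr1 fun e => h1 (h.eq_one hy (e ▸ omegaOne_le 2 R hr))) fun e he _ =>
    h.norm_Th hV (h.E_le hV (hB he)) hyV h1 hr hr1 (zpowers_le.2 ?_) (zpowers_le.2 hg.1) (zpowers_le.2 hg.2)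
      (mem_zpowers g)
  exact mem_cent1_comm.1 (sup_le (zpowers_le.2 (mem_cent1_comm.1 hg.1)) (zpowers_le.2 (mem_cent1_comm.1 hg.2)) he)

theorem mem_norm_W {n : G} (hn : n ∈ 𝐍(R)) (hz : n * z * n⁻¹ ∈ D) : n ∈ 𝐍(Wc D R z r₀) := by
  obtain ⟨V, hV, hyV⟩ := h.exists_V hz (BT.conj_mul_self_of_sq h.z2 n)
  have hA := norm_le_norm_omegaOne 2 R hn
  refine norm_of_conj_le (conj_smul_le_iff_le_inv.2 (iSup₂_le fun r hr => iSup_le fun hr1 =>
    conj_smul_le_iff_le_inv.1 ?_))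
  have h1 := conj_mem_of_mem_normalizer hA hr
  refine le_trans ?_ (le_iSup₂_of_le _ h1 (le_iSup_of_le (mt conj_eq_one_iff.1 hr1) le_rfl))
  rw [h.Th_eq hV (h.E_le hV (mem_sup_right h1)) hyV (mt conj_eq_one_iff.1 h.z1)
    (conj_mem_of_mem_normalizer hA h.rA) (mt conj_eq_one_iff.1 h.r1), Th, conj_smul_inf, ← conj_X]
  exact inf_le_inf (conj_Tt_le (fun g b => (conj_X g b).le) n) (conj_Tt_le (conj_KR_le D) n)

section Mix

variable (hM : Mix D R M)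
include hM

theorem le_of_inv (hV : IsV D z V) (i : Inv (V ⊔ omegaOne 2 R) Y) : Y ≤ M :=
  (h.side_V hV).le_of_forall ⟨le_sup_left.trans i.norm, i.odd⟩ fun v hv hv1 =>
    have i1 := inv_inf_cent1 i (h.E_le hV (mem_sup_left hv))
    h.side_A.le_of_forall ⟨le_sup_right.trans i1.norm, i1.odd⟩ fun r hr hr1 =>
      (inf_le_inf_right _ inf_le_right).trans (hM v (hV.le hv) (hV.sq hv) hv1 r hr hr1)

theorem X_le_M (hV : IsV D z V) (ha : a ∈ V ⊔ omegaOne 2 R) : X a ≤ M :=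
  h.le_of_inv hM hV (inv_X (h.E_le hV ha))

theorem mixed_le (hy : y ∈ D) (h2 : y * y = 1) (h1 : y ≠ 1) (hr : r ∈ omegaOne 2 R) (hr1 : r ≠ 1) :
    𝐂[y * r] ≤ M := by
  obtain ⟨V, hV, hyV⟩ := h.exists_V hy h2
  exact (h.cent_mixed_le hy hr).trans (sup_le (cent_mixed.trans (hM y hy h2 h1 r hr hr1))
    (h.X_le_M hM hV (mul_mem (mem_sup_left hyV) (mem_sup_right hr))))

theorem eq_top_of_r (hr : r ∈ omegaOne 2 R) (hr1 : r ≠ 1) (hC : 𝐂[r] ≤ M) : M = ⊤ :=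
  have := h.simple
  h.toSym.symm.fin (Or.inl h.cent) (omegaOne_le 2 R hr) (h.S_le hr) (h.sq_A hr) h.zD h.z2 h.z1 hC
    fun _ hy h2 h1 => h.mul_comm hy (omegaOne_le 2 R hr) ▸ h.mixed_le hM hy h2 h1 hr hr1

theorem eq_top_of_z (hC : 𝐂[z] ≤ M) : M = ⊤ :=
  have := h.simple
  h.toSym.fin (Or.inr h.cent) h.zD h.zS h.z2 (omegaOne_le 2 R h.rA) (h.sq_A h.rA) h.r1 hC
    fun _ hr h2 h1 => h.mixed_le hM h.zD h.z2 h.z1 (mem_A hr h2) h1

theorem eq_top_of_norm (hN : 𝐍(R) ≤ M) : M = ⊤ := by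
  obtain ⟨V, hV, -⟩ := h.exists_V h.zD h.z2
  refine h.eq_top_of_r hM h.rA h.r1 ((h.cR.frattini h.R_le (h.syl_of_le (h.S_le h.rA)) (h.R_le_N h.rA)
    (Gen_le _ _) (le_norm_Gen _ _)).trans (sup_le ?_ (inf_le_left.trans hN)))
  refine (h.N_le_sup h.rA h.r1 (zpowers_le.2 h.zD)).trans (sup_le ?_ (h.X_le_M hM hV (mem_sup_right h.rA)))
  rw [centralizer_zpowers, inf_comm]
  exact hM z h.zD h.z2 h.z1 r₀ h.rA h.r1

end Mix

theorem W_ne_bot : Wc D R z r₀ ≠ ⊥ := fun e => by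
  have key : ∀ r ∈ omegaOne 2 R, r ≠ 1 → Gen (zpowers z) 𝐂[r] = Gen (zpowers z) 𝐂(omegaOne 2 R) := by
    intro r hr hr1
    have h1 : ∀ y ∈ D, y * y = 1 → y ∈ 𝐂(X r) := fun y hy h2 => by
      by_cases h3 : y = 1
      · rw [h3]; exact one_mem _
      obtain ⟨V, hV, hyV⟩ := h.exists_V hy h2
      have hE := h.E_le hV (mem_sup_right hr)
      have h4 := ((h.spec_W hV).2 r (mem_sup_right hr) hr1).symm
      rw [e, bot_inf_eq, h.Th_eq hV hE hyV h3 hr hr1] at h4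
      have h5 : ⁅X r, zpowers y⁆ ≤ X r := le_normalizer_iff_commutator_le_left.1
        (zpowers_le.2 (le_norm_X r (hE (mem_sup_left hyV))))
      have h6 : X r ≤ Tt (KR D) (X r) r := (le_inf le_rfl (X_le_cen _ _)).trans le_sup_right
      exact zpowers_le.1 (le_cent_comm.1 (commutator_eq_bot_iff_le_centralizer.1
        (le_bot_iff.1 (h4 ▸ le_inf le_sup_left (h5.trans h6)))))
    refine le_antisymm (Gen_le_iff.2 fun x hx g hg => mem_Gen (fun a ha => ?_) hg) (Gen_mono (cent_le_cent1 hr))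
    have hgD := zpowers_le.2 h.zD hg
    have x2 : x * x = 1 := by
      rw [← conj_eq_one_iff (a := g), ← conj_mul]
      rcases mem_zpowers_of_sq h.z2 hg with e | e <;> rw [e]
      exacts [one_mul 1, h.z2]
    obtain ⟨k, hk, h2⟩ := h.cD.exists_conj h.two_D (h.syl_of_le (h.S_le hr)) le_rfl hx hgD
    have h3 : x ∈ 𝐂(X r) := (mem_normalizer_iff.1 (normalizer_le_normalizer_centralizer _
      (le_norm_X r hk)) _).2 (h1 _ h2.1 (BT.conj_mul_self_of_sq x2 k))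
    have h4 := ((mem_cen_iff (h.A_le.trans (h.S_le hr))).1 (cen_anti ((omegaOne_le 2 R).trans (h.R_le_N hr))
      (h.L_le_cen hr hr1 (mem_Gen hx hgD)))).2 a ha
    have h5 : x * a = ⁅x, a⁆ * a * x := by rw [commutatorElement_def]; group
    have h6 : ⁅x, a⁆ * ⁅x, a⁆ = 1 := by
      calc ⁅x, a⁆ * ⁅x, a⁆ = ⁅x, a⁆ * (⁅x, a⁆ * a * x) * x⁻¹ * a⁻¹ := by group
        _ = x * (⁅x, a⁆ * a * x) * x⁻¹ * x⁻¹ * a⁻¹ := by
          rw [← mul_assoc x, ← mul_assoc x, ← h3 _ h4, mul_assoc _ x a, h5]; group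
        _ = 1 := by rw [← h5, ← mul_assoc, x2, mul_assoc _ x⁻¹ x⁻¹, ← mul_inv_rev, x2]; group
    have h7 := (isPElt_of_sq h6).eq_one_of_isPRegular (isPRegular_of_mem (odd_X r) h4)
    exact (commutatorElement_eq_one_iff_mul_comm.1 h7).symm
  have h1 : ∀ r ∈ omegaOne 2 R, r ≠ 1 → 𝐂[r] ≤ 𝐍(Gen (zpowers z) 𝐂(omegaOne 2 R)) := fun r hr hr1 =>
    key r hr hr1 ▸ le_norm_Gen _ _
  have := h.simple
  rcases eq_bot_or_top (h.eq_top_of_r (fun y _ _ _ r hr hr1 => inf_le_right.trans (h1 r hr hr1)) h.rA h.r1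
    (h1 r₀ h.rA h.r1)) with e | e
  · exact h.z1 (mem_bot.1 (e ▸ le_Gen (zpowers_le.2 (h.S_le_cent_A (h.D_le h.zD))) (mem_zpowers z)))
  · exact h.cent_ne_top h.r1 (top_le_iff.1 (e ▸ (Gen_le _ _).trans (cent_le_cent1 h.rA)))

theorem norm_W_ne_top : 𝐍(Wc D R z r₀) ≠ ⊤ := fun e =>
  have := h.simple
  have ⟨_, hV, _⟩ := h.exists_V h.zD h.z2
  h.W_ne_bot (eq_bot_of_norm h.z2 h.z1 e (h.spec_W hV).1.odd)

end Ctx

end GW
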