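import Cfsg.Agent.Lib.GW.ProdD
import Cfsg.Agent.Lib.GW.NoSE
import Cfsg.Agent.Lib.Gag.D8A

/-!
# The product theorem
-/

set_option autoImplicit false
set_option linter.unusedSectionVars false

namespace GW

open Cfsg GT FT GAG Subgroup
open scoped Pointwise commutatorElement

universe u

variable {G : Type*} [Group G] [Finite G] {S D R : Subgroup G} {z r₀ : G}

theorem cent1_qmk_le {c v : G} (hv : v ∈ 𝐂[c]) (h2 : IsPElt 2 v) :
    𝐂[qmk 𝐂[c] (X c) ⟨v, hv⟩] ≤ im c (𝐂[v] ⊓ 𝐂[c]) := fun y hy => by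
  have h3 : y ∈ 𝐂(im c (zpowers v)) := fun x hx => by
    obtain ⟨w, ⟨k, hk⟩, rfl⟩ := mem_qim.1 hx
    have : w = (⟨v, hv⟩ : 𝐂[c]) ^ k := Subtype.ext hk.symm
    rw [this, map_zpow]
    exact (Commute.zpow_left (mem_cent1.1 hy).symm k)
  rwa [← qim_cent (coprimeAct_of_isPGroup_left (zpowers_le.2 (le_norm_X c hv)) h2.isPGroup_zpowers (odd_X c))
    (zpowers_le.2 hv), centralizer_zpowers, ← qim_inf_M, inf_comm] at h3

theorem Ctx.false_of_ab (h : Ctx S D R z r₀) (hab : S ≤ 𝐂(S)) (h8 : ¬ 8 ∣ Nat.card (omegaOne 2 D)) : False := by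
  set M := 𝐍(Wc D R z r₀) with hM
  have mix := h.mix_W
  obtain ⟨V, hV, -⟩ := h.exists_V h.zD h.z2
  have hr := h.S_le h.rA
  have hrS := h.A_le h.rA
  have hN : 𝐍(S) ≤ M := fun n hn => h.mem_norm_W (h.toSym.symm.norm_le hn)
    (conj_mem_of_mem_normalizer (h.norm_le hn) h.zD)
  have hs0 : IsSylowIn 2 (D ⊓ 𝐂[r₀] ⊔ R ⊓ 𝐂[r₀]) 𝐂[r₀] := (h.inf_sup_eq hr).symm ▸ h.syl_of_le hr
  have hs := h.sec (X_le r₀) hs0 fun _ hd _ hr => h.prod_of_odd (odd_X r₀) hd hr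
  rw [h.inf_sup_eq hr] at hs
  have hD := h.D_le.trans hr
  have h1 : ∀ v ∈ V, v ≠ 1 → X v ⊓ 𝐂(omegaOne 2 R) ≤ KR D r₀ := fun v hv hv1 d hd => by
    have hdc := cent_le_cent1 h.rA hd.2
    refine mem_qpre.2 ⟨hdc, centralizer_anti (h.qim_Gen_le hs0) (hs.mem_cent_of_ab (M := im r₀ M) (core_quo r₀)
      (ab_im hab) (fun h2 => h8 (h2.trans ?_)) ?_ (im_norm h.syl hab hrS ▸ qim_mono hN) (fun e => ?_)
      (qmk_mem_qim (x := ⟨v, hD (hV.le hv)⟩) (hV.le hv))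
      (fun e => hv1 (eq_one_of_mem_X h.syl (h.D_le (hV.le hv)) (qmk_eq_one_iff.1 e)))
      ((cent1_qmk_le _ (isPElt_of_sq (hV.sq hv))).trans (qim_mono (mix v (hV.le hv) (hV.sq hv) hv1 r₀ h.rA h.r1)))
      ?_ (qmk_mem_qim (x := ⟨d, hdc⟩) (h.X_le_M mix hV (mem_sup_left hv) hd.1)) ?_)⟩
    · have e := qimEquiv (N := X r₀) hD (Subgroup.disjoint_def.2 fun h1 h2 => eq_one_of_mem_X h.syl (h.D_le h2) h1)
      exact (card_omega_dvd (h.D_le.trans (hab.trans (centralizer_anti h.D_le))) e.toMonoidHom e.surjective).2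
    · exact (hs.Gen_le le_top (top_le_norm_qim (le_norm_Gen _ _)) (qim_mono (h.D_le_L h.rA))).trans
        ((qim_le_iff (Gen_le _ _)).2 ((h.L_le_cen h.rA h.r1).trans (cen_anti (h.R_le_N h.rA))))
    · rw [im, ← qim_inf_M, qim_eq_top_iff (X_le r₀) inf_le_left] at e
      exact h.norm_W_ne_top (h.eq_top_of_r mix h.rA h.r1 (e.ge.trans (sup_le inf_le_right
        (h.X_le_M mix hV (mem_sup_right h.rA)))))
    · have h2 := isPRegular_iff.1 (((isPRegular_mk hdc).2 (isPRegular_of_mem (odd_X v) hd.1)).map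
        (qmk 𝐂[r₀] (X r₀)))
      exact Nat.odd_iff.2 (by omega)
    · rw [← map_mul, ← map_mul]
      exact congrArg _ (Subtype.ext (mem_cent1.1 (X_le v hd.1)))
  have h2 : 𝐂(V) ≤ M := fun g hg => h.norm_W_of hV le_sup_left hV.nc fun v hv hv1 => by
    have hE := h.E_le hV (mem_sup_left hv)
    rw [le_antisymm (Ctx.Th_le hV hE) (h.le_Th hV (inv_X hE) ((h.side_V hV).nul_of
      (inv_X (le_sup_left.trans hE)) hv hv1 inf_le_left) (h.side_A.nul_of (inv_X (le_sup_right.trans hE))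
        h.rA h.r1 (h1 v hv hv1)) le_rfl)]
    exact le_norm_X v (cent_le_cent1 hv hg)
  refine h.norm_W_ne_top (h.eq_top_of_z mix ((h.cent_v_le hV hV.mem h.z1).trans (sup_le (inf_le_right.trans ?_)
    (h.X_le_M mix hV (mem_sup_left hV.mem)))))
  rw [← (h.syl_of_le (hab.trans (centralizer_anti (hV.le.trans h.D_le)))).frattini_sup (cent_le_norm V)
    (normalizer_le_normalizer_centralizer V)]
  exact sup_le h2 (inf_le_left.trans hN)

theorem Red.false_of_ab (h : Red S D R) [hs : IsSimpleGroup G] (hO : Op' 2 (⊤ : Subgroup G) = ⊥)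
    (hne : ⁅Gen D ⊤, Gen R ⊤⁆ ≠ ⊥) (hc : S ≤ 𝐂(R)) (hr : r₀ ∈ omegaOne 2 R) (hr1 : r₀ ≠ 1)
    (hD : D ≤ 𝐂(D)) (h8 : ¬ 8 ∣ Nat.card (omegaOne 2 D)) : False := by
  have hab : S ≤ 𝐂(S) := by
    nth_rewrite 2 [← h.sup]
    rw [centralizer_sup]
    exact le_inf (h.sup ▸ sup_le hD (le_cent_comm.1 h.comm)) hc
  obtain ⟨z, hz, z2, z1⟩ := exists_invol h.two_D (h.D_ne_bot hne)
  have two : ∀ t ∈ D, t * t = 1 → t ≠ 1 → _ := fun t ht h2 h1 =>
    h.exists_two ht h2 h1 (h.not_isol hO hne ht h2 h1)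
  have mem : ∀ t ∈ D, t * t = 1 → t ∈ omegaOne 2 D := fun t ht h2 => mem_omegaOne ht (by rwa [sq])
  obtain ⟨w, hw, w2, w1, wz, k, hk⟩ := two z hz z2 z1
  have h4 : Nat.card (omegaOne 2 D) = 4 := by
    have := comm_iff_le_cent.2 hD
    obtain ⟨n, hn⟩ := exists_elemN_of_elem (elem_omegaOne_of_comm 2 D) le_rfl
    have h1 := mt hn.isCyclic_iff.2 (not_cyclic_of_two (mem w hw w2) (mem z hz z2) w2 z2 w1 z1 wz)
    rw [hn.card] at h8 ⊢
    have h2 : ¬ 3 ≤ n := fun h2 => h8 (pow_dvd_pow 2 h2)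
    rw [show n = 2 by omega]; rfl
  have hk' : k⁻¹ * w * k⁻¹⁻¹ = z := by rw [← hk]; group
  refine Ctx.false_of_ab ⟨h, hs, hne, hc, hz, z2, z1, hab.trans (cent_le_cent1 (h.D_le hz)), hr, hr1,
    fun y hy y2 y1 => ?_, fun y hy y2 g hg h1 => ?_⟩ hab h8
  · rcases four_cases h4 (mem z hz z2) (mem w hw w2) z1 w1 wz.symm z2 (mem y hy y2) with e | e | e | e
    · exact (y1 e).elim
    · exact ⟨1, by simpa using e⟩
    · exact ⟨k⁻¹, e ▸ hk'⟩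
    obtain ⟨t, ht, t2, t1, ty, g, hg⟩ := two y hy y2 y1
    rcases four_cases h4 (mem z hz z2) (mem w hw w2) z1 w1 wz.symm z2 (mem t ht t2) with e' | e' | e' | e'
    · exact (t1 e').elim
    · exact ⟨g, hg.trans e'⟩
    · exact ⟨k⁻¹ * g, by rw [← hk', ← e', ← hg]; group⟩
    · exact (ty (e'.trans e.symm)).elim
  have hgz : g * z * g⁻¹ = z := by rw [mem_cent1.1 hg]; group
  by_cases y1 : y = 1
  · simp [y1]
  by_cases yz : y = z
  · rw [yz, hgz, mul_inv_cancel]; exact one_mem _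
  rcases four_cases h4 (mem z hz z2) (mem y hy y2) z1 y1 (Ne.symm yz) z2
    (mem _ h1 (BT.conj_mul_self_of_sq y2 g)) with e | e | e | e
  · exact (y1 (conj_eq_one_iff.1 e)).elim
  · exact (yz (by simpa using e.trans hgz.symm)).elim
  · rw [e, mul_inv_cancel]; exact one_mem _
  · rw [e, mul_inv_cancel_right]; exact mem_zpowers z

theorem dih_comm_mem {L : Type*} [Group L] [Finite L] {P : Subgroup L} {σ τ J : L} (Δ : DihSyl P σ τ J 1)
    {t y : L} (ht : t ∈ P) (hy : y ∈ P) : t * y * t⁻¹ * y⁻¹ ∈ zpowers J := by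
  have key : ∀ s ∈ zpowers σ, s * s ∈ zpowers J := fun s hs => by
    obtain ⟨n, rfl⟩ := mem_zpowers_iff.1 hs
    refine ⟨n, ?_⟩
    simp only [Δ.J_eq, pow_one, sq]
    exact (Commute.refl σ).mul_zpow n
  by_cases h1 : t ∈ zpowers σ <;> by_cases h2 : y ∈ zpowers σ
  · rw [DihSyl.comm h1 h2]; simp
  · have := Δ.conj_of_not_mem hy h2 (inv_mem h1)
    rw [show t * y * t⁻¹ * y⁻¹ = t * (y * t⁻¹ * y⁻¹) by group, this, inv_inv]
    exact key t h1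
  · rw [Δ.conj_of_not_mem ht h1 h2]
    exact key _ (inv_mem h2)
  · rw [inv_eq_of_mul_eq_one_right (Δ.sq_of_not_mem ht h1), inv_eq_of_mul_eq_one_right (Δ.sq_of_not_mem hy h2),
      mul_assoc]
    exact key _ (Δ.mul_mem_of_not_mem ht h1 hy h2)

theorem Red.false_of_dih (h : Red S D R) [hs : IsSimpleGroup G]
    (hne : ⁅Gen D ⊤, Gen R ⊤⁆ ≠ ⊥) (hc : S ≤ 𝐂(R)) (hr : r₀ ∈ omegaOne 2 R) (hr1 : r₀ ≠ 1)
    (e : D ≃* DihedralGroup 4) : False := by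
  have hS : S ≤ 𝐍(R) := hc.trans (cent_le_norm R)
  have hD := h.D_le.trans hS
  have e1 := qimEquiv (N := R) hD (disjoint_iff.2 (inf_comm D R ▸ h.inf))
  have e2 : qim 𝐍(R) R S = qim 𝐍(R) R D := by rw [← h.sup, qim_sup_self le_normalizer hD]
  obtain ⟨τ, Δ⟩ := exists_dihSyl_of_mulEquiv (e2 ▸ sylow_qim_top (N := R) (h.syl_of_le hS)) (k := 1) le_rfl
    (e1.symm.trans e) ((e1.symm.trans e).symm (DihedralGroup.r 1)).2 (by
      rw [Subgroup.orderOf_coe, MulEquiv.orderOf_eq, DihedralGroup.orderOf_r_one]; rfl)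
  generalize (((e1.symm.trans e).symm (DihedralGroup.r 1) : qim 𝐍(R) R D) : Quo 𝐍(R) R) = σ at Δ
  generalize σ ^ 2 ^ 1 = J at Δ
  obtain ⟨⟨z, hzN⟩, hz, rfl⟩ := mem_qim.1 (Δ.le Δ.J_mem)
  have inj : ∀ x y : 𝐍(R), (x : G) ∈ D → (y : G) ∈ D → qmk 𝐍(R) R x = qmk 𝐍(R) R y → (x : G) = y :=
    fun x y hx hy e => inv_mul_eq_one.1 (h.eq_one (D.mul_mem (D.inv_mem hx) hy) (qmk_eq_iff.1 e))
  have z2 : z * z = 1 := inj (⟨z, hzN⟩ * ⟨z, hzN⟩) 1 (D.mul_mem hz hz) D.one_mem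
    (by rw [map_mul, map_one, Δ.J_sq])
  have z1 : z ≠ 1 := fun e => Δ.J_ne_one (by rw [show (⟨z, hzN⟩ : 𝐍(R)) = 1 from Subtype.ext e, map_one])
  have zS : S ≤ 𝐂[z] := h.sup ▸ sup_le (fun d hd => mem_cent1.2 (inj (⟨d, hD hd⟩ * ⟨z, hzN⟩)
    (⟨z, hzN⟩ * ⟨d, hD hd⟩) (D.mul_mem hd hz) (D.mul_mem hz hd) (by
      rw [map_mul, map_mul]
      exact mem_cent1.1 (Δ.le_C (qmk_mem_qim hd))))) (le_cent1_iff.2 (h.comm hz))
  have sq : ∀ x : 𝐍(R), (x : G) * x = 1 → qmk 𝐍(R) R x * qmk 𝐍(R) R x = 1 := fun x hx => by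
    rw [← map_mul, show x * x = 1 from Subtype.ext hx, map_one]
  have fus : ∀ y ∈ D, y * y = 1 → y ≠ 1 → ∃ g : G, g * y * g⁻¹ = z := fun y hy y2 y1 => by
    have a1 : qpre 𝐍(R) R (qim 𝐍(R) R D) = S := by rw [qpre_qim le_normalizer hD, h.sup]
    have a2 : qpre 𝐍(R) R (zpowers σ) ≤ S := a1 ▸ qpre_mono Δ.le
    obtain ⟨g, hg⟩ := E8.exists_conj_mem_of_index (R := qpre 𝐍(R) R (zpowers σ)) (m := S.index)
      (Nat.odd_iff.2 (by have := (isSylowIn_top_iff'.1 h.syl).2; omega))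
      (by rw [← relIndex_mul_index a2, ← a1, relIndex_qpre, Δ.relIndex_S]) y2 (by
        rw [(inferInstance : (commutator G).Normal).eq_bot_or_eq_top.resolve_left fun e =>
          hne (le_bot_iff.1 (e ▸ commutator_mono le_top le_top))]
        exact mem_top y)
    obtain ⟨a3, a4⟩ := mem_qpre.1 hg
    have a5 := h.cD y hy g (a2 hg)
    exact ⟨g, inj ⟨_, a3⟩ ⟨z, hzN⟩ a5 hz (Δ.eq_J_of_sq a4 (fun e => y1 (conj_eq_one_iff.1
      (inj ⟨_, a3⟩ 1 a5 D.one_mem (e.trans (map_one _).symm)))) (sq _ (BT.conj_mul_self_of_sq y2 g)))⟩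
  have C : Ctx S D R z r₀ := ⟨h, hs, hne, hc, hz, z2, z1, zS, hr, hr1, fus, fun y hy y2 g hg h1 => by
    obtain ⟨n, hn, e⟩ := h.exists_norm_conj hc zS (h.D_le hy) hg (h.D_le h1)
    rw [← e] at h1 ⊢
    obtain ⟨φ, ρ⟩ := Δ.exists_retr
    obtain ⟨t, ht, e3⟩ := ρ.exists_mem_conj_eq (qmk_mem_qim (x := ⟨y, hD hy⟩) hy)
      (g := qmk 𝐍(R) R ⟨n, hn.2⟩) (mem_cent1.2 (by
        rw [← map_mul, ← map_mul]
        exact congrArg _ (Subtype.ext (mem_cent1.1 hn.1)))) (by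
        rw [← map_inv, ← map_mul, ← map_mul]
        exact qmk_mem_qim h1)
    have a1 := dih_comm_mem Δ ht (qmk_mem_qim (x := ⟨y, hD hy⟩) hy)
    rw [e3, ← map_inv, ← map_inv, ← map_mul, ← map_mul, ← map_mul] at a1
    rcases mem_zpowers_of_sq Δ.J_sq a1 with a2 | a2
    · rw [show n * y * n⁻¹ * y⁻¹ = 1 from
        inj _ 1 (D.mul_mem h1 (D.inv_mem hy)) D.one_mem (a2.trans (map_one _).symm)]
      exact one_mem _
    · rw [show n * y * n⁻¹ * y⁻¹ = z from inj _ _ (D.mul_mem h1 (D.inv_mem hy)) hz a2]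
      exact mem_zpowers z⟩
  have key : ∀ t ∈ qim 𝐍(R) R D, t ∉ zpowers σ → ∃ m ∈ qim 𝐍(R) R 𝐍(Wc D R z r₀),
      m * qmk 𝐍(R) R ⟨z, hzN⟩ * m⁻¹ = t := fun t ht h1 => by
    obtain ⟨y, hy, rfl⟩ := mem_qim.1 ht
    obtain ⟨g, hg⟩ := fus y hy (inj (y * y) 1 (D.mul_mem hy hy) D.one_mem
      (by rw [map_mul, map_one, Δ.sq_of_not_mem ht h1])) fun e => h1 (by
        rw [show y = 1 from Subtype.ext e, map_one]; exact one_mem _)
    have a1 : g⁻¹ * z * g⁻¹⁻¹ = y := by rw [← hg]; group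
    obtain ⟨n, hn, e⟩ := h.exists_norm_conj hc le_top (h.D_le hz) (mem_top g⁻¹) (a1 ▸ h.D_le hy)
    rw [a1] at e
    refine ⟨_, qmk_mem_qim (x := ⟨n, hn.2⟩) (C.mem_norm_W hn.2 (e ▸ hy)), ?_⟩
    rw [← map_inv, ← map_mul, ← map_mul]
    exact congrArg _ (Subtype.ext e)
  have h1 := no_se_dih Δ le_rfl (M := qim 𝐍(R) R 𝐍(Wc D R z r₀)) (fun x hx => by
    obtain ⟨x, rfl⟩ := qmk_surjective _ _ x
    refine qmk_mem_qim (C.mem_norm_W x.2 (h.cD z hz x ?_))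
    have a1 : z⁻¹ * (x * z * (x : G)⁻¹) ∈ R := (qmk_eq_iff (x := ⟨z, hzN⟩) (y := x * ⟨z, hzN⟩ * x⁻¹)).1 (by
      rw [map_mul, map_mul, map_inv, mem_cent1.1 hx, mul_inv_cancel_right])
    exact (Subgroup.mul_mem_cancel_left _ (S.inv_mem (h.D_le hz))).1 (h.R_le a1))
    (key τ Δ.τ_mem Δ.not_mem) (key _ (mul_mem Δ.σ_mem Δ.τ_mem) (Δ.mul_τ_not_mem (mem_zpowers σ)))
  rw [← qim_inf_M, qim_eq_top_iff le_normalizer inf_le_left] at h1
  exact C.norm_W_ne_top (C.eq_top_of_norm C.mix_W (h1.ge.trans (sup_le inf_le_right fun ρ hρ =>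
    C.mem_norm_W (le_normalizer hρ) (conj_mem_of_mem_normalizer (h.S_le_norm (h.R_le hρ)) hz))))

theorem card_quo_lt {M N : Subgroup G} [(N.subgroupOf M).Normal] (hN : N ≤ M) (h : M ≠ ⊤ ∨ N ≠ ⊥) :
    Nat.card (Quo M N) < Nat.card G := by
  have h1 := card_mul_relIndex hN
  have h2 := M.card_mul_index
  have h3 : 0 < Nat.card N := Nat.card_pos
  have h4 : 0 < Nat.card M := Nat.card_pos
  have h5 : 0 < M.index := Nat.pos_of_ne_zero index_ne_zero_of_finite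
  rw [card_quo]
  rcases h with h | h
  · have : 2 ≤ M.index := by have := mt index_eq_one.1 h; omega
    nlinarith
  · have : 2 ≤ Nat.card N := by have := mt card_eq_one.1 h; omega
    nlinarith

theorem product_aux (G : Type u) [Group G] [Finite G] : ∀ S D R : Subgroup G, Sym S D R → S ≤ 𝐂(R) →
    SmallD D → ⁅Gen D ⊤, Gen R ⊤⁆ ≤ Op' 2 ⊤ := by
  refine induction_on_card (P := fun G _ _ => ∀ S D R : Subgroup G, Sym S D R → S ≤ 𝐂(R) →
    SmallD D → ⁅Gen D ⊤, Gen R ⊤⁆ ≤ Op' 2 ⊤) (fun G _ _ ih S D R h hc hD => ?_) G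
  have h1 : Red S D R := ⟨h, fun M N _ hN h1 hS hp => by
    rw [← qim_le_iff ((commutator_mono (Gen_le _ _) (Gen_le _ _)).trans (der_le M)),
      qim_commutator (Gen_le _ _) (Gen_le _ _)]
    exact (commutator_mono (h.qim_Gen_le hS) (h.symm.qim_Gen_le (sup_comm (D ⊓ M) (R ⊓ M) ▸ hS))).trans
      (ih _ (card_quo_lt hN h1) _ _ _ (h.sec hN hS hp) (qim_le_cent (h.sec_le.trans hc)) (hD.qim M N))⟩
  by_cases hO : Op' 2 (⊤ : Subgroup G) = ⊥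
  swap
  · exact h1.sub (Or.inr hO) ((h.inf_sup_eq le_top).symm ▸ h.syl)
  rw [hO, le_bot_iff]
  by_contra hne
  have := h1.simple hO hne hc
  obtain ⟨r, hr, r2, r1⟩ := exists_invol h.two_R (h1.symm.D_ne_bot (h1.ne_symm hne))
  rcases hD with ⟨h2, h3⟩ | ⟨⟨e⟩⟩
  · exact h1.false_of_ab hO hne hc (Ctx.mem_A hr r2) r1 h2 h3
  · exact h1.false_of_dih hne hc (Ctx.mem_A hr r2) r1 e

/-- **Product theorem.** -/
theorem product (G : Type u) [Group G] [Finite G] {S D R : Subgroup G} (hS : IsSylowIn 2 S ⊤)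
    (hDR : D ⊔ R = S) (hi : D ⊓ R = ⊥) (hR : S ≤ 𝐂(R)) (hD : SmallD D) (hcD : SCl D S) (hcR : SCl R S) :
    ⁅normalClosure (D : Set G), normalClosure (R : Set G)⁆ ≤ pPrimeCore 2 G :=
  (commutator_mono normalClosure_le_Gen normalClosure_le_Gen).trans (Op'_top (G := G) 2 ▸
    product_aux G S D R ⟨hS, hDR, hi, (hDR ▸ le_sup_left : D ≤ S).trans hR, hcD, hcR⟩ hR hD)

end GW
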